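import Mathlib

/-!
# S4607 project, piece ALG2 (helper85 for helper1)

A finite-dimensional symmetric algebra `A` with a surjection `π : A → Mat_n(F)` with nilpotent
kernel `J`, centre `span {1, z}`, `z J = 0`, `z ∈ J`, `z ≠ 0`, has dimension `2 n²`.
-/

set_option autoImplicit false

namespace Cfsg.Agent.Lib.Helper85.BrandtAlg2

open scoped Pointwise

lemma sum_single_diag (n : ℕ) (F : Type*) [Field F] :
    ∑ k : Fin n, Matrix.single k k (1 : F) = 1 := by
  ext i j
  rw [Matrix.sum_apply]
  by_cases h : i = j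
  · subst h
    rw [Matrix.one_apply_eq, Finset.sum_eq_single i]
    · rw [Matrix.single_apply_same]
    · intro k _ hk
      exact Matrix.single_apply_of_row_ne hk _ _ _
    · intro h'
      exact absurd (Finset.mem_univ i) h'
  · rw [Matrix.one_apply_ne h]
    apply Finset.sum_eq_zero
    intro k _
    apply Matrix.single_apply_of_ne
    rintro ⟨rfl, rfl⟩
    exact h rfl

theorem brandt_alg2 {F A : Type*} [Field F] [Ring A] [Algebra F A] [FiniteDimensional F A]
    (lam : A →ₗ[F] F) (hsymm : ∀ x y, lam (x * y) = lam (y * x))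
    (hnd : ∀ x, (∀ y, lam (x * y) = 0) → x = 0)
    (z : A) (hzc : z ∈ Subalgebra.center F A) (hz0 : z ≠ 0)
    (hcenter : ∀ c ∈ Subalgebra.center F A, ∃ α β : F, c = α • (1 : A) + β • z)
    (n : ℕ) [NeZero n] (π : A →ₐ[F] Matrix (Fin n) (Fin n) F) (hπ : Function.Surjective π)
    (hnil : ∃ N : ℕ, ∀ l : List A, l.length = N → (∀ x ∈ l, π x = 0) → l.prod = 0)
    (hzJ : ∀ j, π j = 0 → z * j = 0) (hπz : π z = 0) :
    Module.finrank F A = 2 * n ^ 2 := by
  classical
  obtain ⟨N, hN⟩ := hnil
  have hzcomm : ∀ b : A, b * z = z * b := Subalgebra.mem_center_iff.mp hzc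
  -- nilpotency of the elements of the kernel
  have hpowN : ∀ x, π x = 0 → x ^ N = 0 := by
    intro x hx
    rw [← List.prod_replicate]
    exact hN _ (List.length_replicate ..)
      (fun y hy => by rw [List.eq_of_mem_replicate hy]; exact hx)
  -- duality
  let Λ : A →ₗ[F] Module.Dual F A := (LinearMap.mul F A).compr₂ lam
  have hΛ : ∀ c x, Λ c x = lam (c * x) := fun c x => rfl
  have hΛinj : Function.Injective Λ := by
    rw [← LinearMap.ker_eq_bot, LinearMap.ker_eq_bot']
    intro c hc
    exact hnd c (fun y => by rw [← hΛ, hc]; rfl)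
  have hΛsurj : Function.Surjective Λ :=
    (LinearMap.injective_iff_surjective_of_finrank_eq_finrank
      (Subspace.dual_finrank_eq (K := F) (V := A)).symm).mp hΛinj
  -- the kernel
  let J' : Submodule F A := LinearMap.ker π.toLinearMap
  have hJmem : ∀ x, x ∈ J' ↔ π x = 0 := fun x => by
    show x ∈ LinearMap.ker π.toLinearMap ↔ _
    rw [LinearMap.mem_ker, AlgHom.toLinearMap_apply]
  -- the annihilator of `z` is the kernel
  have hann : ∀ x, z * x = 0 → π x = 0 := by
    intro x hzx
    by_contra hπx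
    obtain ⟨r, s, hrs⟩ : ∃ r s, (π x) r s ≠ 0 := by
      by_contra hno
      push_neg at hno
      exact hπx (Matrix.ext hno)
    choose a ha using fun k : Fin n => hπ (Matrix.single k r ((π x) r s)⁻¹)
    choose b hb using fun k : Fin n => hπ (Matrix.single s k (1 : F))
    have h1 : π (∑ k, a k * x * b k) = 1 := by
      rw [map_sum, ← sum_single_diag n F]
      refine Finset.sum_congr rfl (fun k _ => ?_)
      rw [map_mul, map_mul, ha, hb, Matrix.single_mul_mul_single, inv_mul_cancel₀ hrs, one_mul]
    have h2 : z * (1 - ∑ k, a k * x * b k) = 0 :=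
      hzJ _ (by rw [map_sub, map_one, h1, sub_self])
    have h3 : z * ∑ k, a k * x * b k = 0 := by
      rw [Finset.mul_sum]
      refine Finset.sum_eq_zero (fun k _ => ?_)
      rw [← mul_assoc, ← mul_assoc, ← hzcomm (a k), mul_assoc (a k), hzx, mul_zero, zero_mul]
    apply hz0
    rw [mul_sub, mul_one, h3, sub_zero] at h2
    exact h2
  -- dimension count
  have hrank : n ^ 2 + Module.finrank F J' = Module.finrank F A := by
    have h := LinearMap.finrank_range_add_finrank_ker π.toLinearMap
    have hr : LinearMap.range π.toLinearMap = ⊤ := LinearMap.range_eq_top.mpr hπ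
    rw [hr, finrank_top, Module.finrank_matrix, Fintype.card_fin, Module.finrank_self,
      mul_one] at h
    rw [pow_two]
    exact h
  have hge : n ^ 2 ≤ Module.finrank F J' := by
    let mz : A →ₗ[F] A := LinearMap.mulLeft F z
    have hker : LinearMap.ker mz = J' := by
      ext x
      rw [LinearMap.mem_ker, hJmem]
      show z * x = 0 ↔ π x = 0
      exact ⟨hann x, hzJ x⟩
    have hrange : LinearMap.range mz ≤ J' := by
      rintro _ ⟨x, rfl⟩
      rw [hJmem]
      show π (z * x) = 0
      rw [map_mul, hπz, zero_mul]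
    have h := LinearMap.finrank_range_add_finrank_ker mz
    rw [hker] at h
    have h' := Submodule.finrank_mono hrange
    omega
  -- it suffices to show `J² = 0`
  suffices hJ2 : ∀ j j', π j = 0 → π j' = 0 → j * j' = 0 by
    have hle : Module.finrank F J' ≤ Module.finrank F J'.dualAnnihilator := by
      let Ψ : J' →ₗ[F] J'.dualAnnihilator :=
        (Λ.comp J'.subtype).codRestrict J'.dualAnnihilator (fun j => by
          rw [Submodule.mem_dualAnnihilator]
          intro w hw
          show lam ((j : A) * w) = 0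
          rw [hJ2 _ _ ((hJmem _).mp j.2) ((hJmem _).mp hw), map_zero])
      have hΨ : Function.Injective Ψ := by
        intro j₁ j₂ h
        apply Subtype.ext
        apply hΛinj
        exact congrArg Subtype.val h
      exact LinearMap.finrank_le_finrank_of_injective hΨ
    have hadd := Subspace.finrank_add_finrank_dualAnnihilator_eq J'
    omega
  by_contra hcon
  push_neg at hcon
  obtain ⟨j0, j0', hj0, hj0', hne⟩ := hcon
  -- idempotent lifting
  have hkernil : ∀ x ∈ RingHom.ker (π : A →+* Matrix (Fin n) (Fin n) F), IsNilpotent x := by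
    intro x hx
    exact ⟨N, hpowN x (RingHom.mem_ker.mp hx)⟩
  obtain ⟨ε, hε, hπε⟩ := exists_isIdempotentElem_eq_of_ker_isNilpotent
    (π : A →+* Matrix (Fin n) (Fin n) F) hkernil (Matrix.single 0 0 (1 : F))
    (RingHom.mem_range.mpr (hπ _))
    (by
      show Matrix.single 0 0 (1 : F) * Matrix.single 0 0 (1 : F) = Matrix.single 0 0 (1 : F)
      rw [Matrix.single_mul_single_same, mul_one])
  have hπε' : π ε = Matrix.single 0 0 (1 : F) := hπε
  have hεε : ε * ε = ε := hε
  have hεl : ∀ x, ε * (ε * x) = ε * x := fun x => by rw [← mul_assoc, hεε]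
  choose a₀ ha₀ using fun k : Fin n => hπ (Matrix.single k 0 (1 : F))
  choose b hb using fun k : Fin n => hπ (Matrix.single 0 k (1 : F))
  obtain ⟨a, h1⟩ : ∃ a : Fin n → A, ∑ k, a k * ε * b k = 1 := by
    have hy : π (1 - ∑ k, a₀ k * ε * b k) = 0 := by
      rw [map_sub, map_one, map_sum, sub_eq_zero, ← sum_single_diag n F]
      refine Finset.sum_congr rfl (fun k _ => ?_)
      rw [map_mul, map_mul, ha₀, hb, hπε', Matrix.single_mul_single_same,
        Matrix.single_mul_single_same, mul_one, mul_one]
    obtain ⟨u, hu⟩ : ∃ u : A, u * (∑ k, a₀ k * ε * b k) = 1 := by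
      have h := geom_sum_mul_neg (1 - ∑ k, a₀ k * ε * b k) N
      rw [hpowN _ hy, sub_zero, sub_sub_cancel] at h
      exact ⟨_, h⟩
    refine ⟨fun k => u * a₀ k, ?_⟩
    rw [← hu, Finset.mul_sum]
    refine Finset.sum_congr rfl (fun k _ => ?_)
    simp only [mul_assoc]
  have hεr : ∀ r, ε * r * ε = r → ε * r = r ∧ r * ε = r := by
    intro r hr
    constructor
    · rw [← hr]
      simp only [← mul_assoc, hεε]
    · rw [← hr]
      simp only [mul_assoc, hεε]
  -- the radical of the corner algebra
  let R : Submodule F A :=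
    { carrier := {x | π x = 0 ∧ ε * x * ε = x}
      add_mem' := by
        rintro x y ⟨hx1, hx2⟩ ⟨hy1, hy2⟩
        refine ⟨by rw [map_add, hx1, hy1, add_zero], ?_⟩
        rw [mul_add, add_mul, hx2, hy2]
      zero_mem' := ⟨map_zero π, by rw [mul_zero, zero_mul]⟩
      smul_mem' := by
        rintro c x ⟨hx1, hx2⟩
        refine ⟨by rw [map_smul, hx1, smul_zero], ?_⟩
        rw [mul_smul_comm, smul_mul_assoc, hx2] }
  have hRmem : ∀ x, x ∈ R ↔ π x = 0 ∧ ε * x * ε = x := fun x => Iff.rfl
  have hdecomp : ∀ u, ε * u * ε = u → u - (π u 0 0) • ε ∈ R := by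
    intro u hu
    refine ⟨?_, ?_⟩
    · rw [map_sub, map_smul, hπε', sub_eq_zero]
      conv_lhs => rw [← hu]
      rw [map_mul, map_mul, hπε', Matrix.single_mul_mul_single, one_mul, mul_one,
        Matrix.smul_single, smul_eq_mul, mul_one]
    · rw [mul_sub, sub_mul, hu, mul_smul_comm, smul_mul_assoc, hεε, hεε]
  have comm_B : ∀ u v, ε * u * ε = u → ε * v * ε = v → u * v - v * u ∈ R * R := by
    intro u v hu hv
    obtain ⟨heu, hue⟩ := hεr u hu
    obtain ⟨hev, hve⟩ := hεr v hv
    have key : u * v - v * u = (u - (π u 0 0) • ε) * (v - (π v 0 0) • ε) -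
        (v - (π v 0 0) • ε) * (u - (π u 0 0) • ε) := by
      simp only [sub_mul, mul_sub, smul_mul_assoc, mul_smul_comm, hue, heu, hve, hev, hεε]
      module
    rw [key]
    exact sub_mem (Submodule.mul_mem_mul (hdecomp u hu) (hdecomp v hv))
      (Submodule.mul_mem_mul (hdecomp v hv) (hdecomp u hu))
  have hMB : ∀ p i k, ε * (ε * b i * p * a k * ε) * ε = ε * b i * p * a k * ε := by
    intro p i k
    simp only [mul_assoc, hεl, hεε]
  have hMR : ∀ p, π p = 0 → ∀ i k, ε * b i * p * a k * ε ∈ R := by
    intro p hp i k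
    refine ⟨?_, hMB p i k⟩
    simp only [map_mul, hp, mul_zero, zero_mul]
  have hMmul : ∀ p q i l, ε * b i * (p * q) * a l * ε =
      ∑ k, (ε * b i * p * a k * ε) * (ε * b k * q * a l * ε) := by
    intro p q i l
    have h : ∀ k, (ε * b i * p * a k * ε) * (ε * b k * q * a l * ε) =
        (ε * b i * p) * (a k * ε * b k) * (q * a l * ε) := by
      intro k
      simp only [mul_assoc, hεl]
    rw [Finset.sum_congr rfl (fun k _ => h k), ← Finset.sum_mul, ← Finset.mul_sum, h1, mul_one]
    simp only [mul_assoc]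
  -- the trace-like map onto the corner
  obtain ⟨ρ, hρ⟩ : ∃ ρ : A →ₗ[F] A, ∀ x, ρ x = ∑ i, ε * b i * x * a i * ε := by
    refine ⟨∑ i, (LinearMap.mulLeft F (ε * b i)).comp (LinearMap.mulRight F (a i * ε)),
      fun x => ?_⟩
    rw [LinearMap.sum_apply]
    refine Finset.sum_congr rfl (fun i _ => ?_)
    rw [LinearMap.comp_apply, LinearMap.mulLeft_apply, LinearMap.mulRight_apply]
    simp only [mul_assoc]
  have hρJ2 : ∀ y ∈ J' * J', ρ y ∈ R * R := by
    intro y hy
    refine Submodule.mul_induction_on hy (fun j hj j' hj' => ?_) (fun x y hx hy => ?_)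
    · rw [hρ]
      refine Submodule.sum_mem _ (fun i _ => ?_)
      rw [hMmul]
      exact Submodule.sum_mem _ (fun k _ =>
        Submodule.mul_mem_mul (hMR j ((hJmem j).mp hj) i k) (hMR j' ((hJmem j').mp hj') k i))
    · rw [map_add]
      exact add_mem hx hy
  have hρcomm : ∀ p q, ρ (p * q - q * p) ∈ R * R := by
    intro p q
    have e1 : ρ (p * q) = ∑ i, ∑ k, (ε * b i * p * a k * ε) * (ε * b k * q * a i * ε) := by
      rw [hρ]
      exact Finset.sum_congr rfl (fun i _ => hMmul p q i i)
    have e2 : ρ (q * p) = ∑ i, ∑ k, (ε * b k * q * a i * ε) * (ε * b i * p * a k * ε) := by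
      rw [hρ, Finset.sum_congr rfl (fun i _ => hMmul q p i i)]
      exact Finset.sum_comm
    rw [map_sub, e1, e2, ← Finset.sum_sub_distrib]
    refine Submodule.sum_mem _ (fun i _ => ?_)
    rw [← Finset.sum_sub_distrib]
    exact Submodule.sum_mem _ (fun k _ => comm_B _ _ (hMB p i k) (hMB q k i))
  have hρB : ∀ x, ε * x * ε = x → ρ x - x ∈ R * R := by
    intro x hx
    obtain ⟨hex, hxe⟩ := hεr x hx
    have e1 : ρ x = ∑ i, (ε * b i * ε) * (x * a i * ε) := by
      rw [hρ]
      refine Finset.sum_congr rfl (fun i _ => ?_)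
      have h : ε * b i * x * a i * ε = ε * b i * (ε * x) * a i * ε := by rw [hex]
      rw [h]
      simp only [mul_assoc]
    have e2 : ∑ i, (x * a i * ε) * (ε * b i * ε) = x := by
      have h : ∀ i, (x * a i * ε) * (ε * b i * ε) = x * (a i * ε * b i) * ε := fun i => by
        simp only [mul_assoc, hεl]
      rw [Finset.sum_congr rfl (fun i _ => h i), ← Finset.sum_mul, ← Finset.mul_sum, h1, mul_one,
        hxe]
    have e3 : ρ x - x =
        ∑ i, ((ε * b i * ε) * (x * a i * ε) - (x * a i * ε) * (ε * b i * ε)) := by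
      rw [Finset.sum_sub_distrib, ← e1, e2]
    rw [e3]
    refine Submodule.sum_mem _ (fun i _ => comm_B _ _ ?_ ?_)
    · simp only [mul_assoc, hεl, hεε]
    · calc ε * (x * a i * ε) * ε = (ε * x) * a i * (ε * ε) := by simp only [mul_assoc]
        _ = x * a i * ε := by rw [hex, hεε]
  -- symmetric functionals vanishing on `J²` vanish on `J`
  obtain ⟨C, hC⟩ : ∃ C : Submodule F A,
      C = Submodule.span F {w | ∃ p q : A, w = p * q - q * p} := ⟨_, rfl⟩
  have hb' : ∀ x, π x = 0 → x ∈ J' * J' ⊔ C := by
    intro x hx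
    by_contra hxS
    obtain ⟨f, hfx, hfS⟩ := Submodule.exists_dual_map_eq_bot_of_notMem hxS inferInstance
    have hfS' : ∀ y ∈ J' * J' ⊔ C, f y = 0 := fun y hy =>
      (Submodule.eq_bot_iff _).mp hfS (f y) (Submodule.mem_map_of_mem hy)
    obtain ⟨c, hc⟩ := hΛsurj f
    have hfc : ∀ y, f y = lam (c * y) := fun y => by rw [← hc]; rfl
    have hfsymm : ∀ p q, f (p * q) = f (q * p) := by
      intro p q
      have h := hfS' (p * q - q * p) (Submodule.mem_sup_right (by
        rw [hC]
        exact Submodule.subset_span ⟨p, q, rfl⟩))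
      rw [map_sub, sub_eq_zero] at h
      exact h
    have hccen : c ∈ Subalgebra.center F A := by
      rw [Subalgebra.mem_center_iff]
      intro x'
      have h : c * x' - x' * c = 0 := by
        apply hnd
        intro y
        rw [sub_mul, map_sub, sub_eq_zero, mul_assoc, ← hfc, hfsymm, hfc, ← mul_assoc,
          hsymm, mul_assoc]
      exact (sub_eq_zero.mp h).symm
    obtain ⟨α, β, hαβ⟩ := hcenter c hccen
    have hcJ : ∀ j j', π j = 0 → π j' = 0 → c * j * j' = 0 := by
      intro j j' hj hj'
      apply hnd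
      intro y
      have hmem : j * (j' * y) ∈ J' * J' :=
        Submodule.mul_mem_mul ((hJmem j).mpr hj)
          ((hJmem _).mpr (by rw [map_mul, hj', zero_mul]))
      have h := hfS' _ (Submodule.mem_sup_left hmem)
      rw [hfc] at h
      have h' : c * j * j' * y = c * (j * (j' * y)) := by simp only [mul_assoc]
      rw [h']
      exact h
    have hα : α = 0 := by
      have h := hcJ j0 j0' hj0 hj0'
      simp only [hαβ, add_mul, smul_mul_assoc, one_mul, hzJ j0 hj0, smul_zero,
        add_zero] at h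
      exact (smul_eq_zero.mp h).resolve_right hne
    apply hfx
    rw [hfc, hαβ, hα, zero_smul, zero_add, smul_mul_assoc, hzJ x hx, smul_zero, map_zero]
  -- Nakayama
  have hRR : R ≤ R * R := by
    intro x hx
    obtain ⟨hx1, hx2⟩ := (hRmem x).mp hx
    obtain ⟨y, hy, w, hw, hyw⟩ := Submodule.mem_sup.mp (hb' x hx1)
    have hρw : ρ w ∈ R * R := by
      have hle : C ≤ (R * R).comap ρ := by
        rw [hC, Submodule.span_le]
        rintro _ ⟨p, q, rfl⟩
        exact hρcomm p q
      exact hle hw
    have hx' : x = -(ρ x - x) + (ρ y + ρ w) := by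
      rw [← map_add, hyw]
      abel
    rw [hx']
    exact add_mem (neg_mem (hρB x hx2)) (add_mem (hρJ2 y hy) hρw)
  have hRpow : ∀ k : ℕ, R ≤ R ^ (k + 1) := by
    intro k
    induction k with
    | zero => rw [zero_add, pow_one]
    | succ k ih =>
      rw [pow_succ]
      exact hRR.trans (mul_le_mul' ih le_rfl)
  have hN1 : 1 ≤ N := by
    by_contra hN0
    have hN0' : N = 0 := by omega
    have h := hN [] (by rw [hN0']; rfl) (fun x hx => absurd hx List.not_mem_nil)
    rw [List.prod_nil] at h
    apply hz0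
    rw [← mul_one z, h, mul_zero]
  have hR0 : ∀ x ∈ R, x = 0 := by
    intro x hx
    have h1' : x ∈ R ^ N := by
      have h := hRpow (N - 1) hx
      rwa [Nat.sub_add_cancel hN1] at h
    rw [Submodule.pow_eq_span_pow_set] at h1'
    have hle : Submodule.span F ((R : Set A) ^ N) ≤ ⊥ := by
      rw [Submodule.span_le]
      intro y hy
      obtain ⟨g, rfl⟩ := Set.mem_pow.mp hy
      rw [SetLike.mem_coe, Submodule.mem_bot]
      refine hN _ (by simp) (fun w hw => ?_)
      rw [List.mem_ofFn'] at hw
      obtain ⟨i, rfl⟩ := hw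
      exact ((hRmem _).mp (g i).2).1
    exact (Submodule.mem_bot F).mp (hle h1')
  have hJzero : ∀ j, π j = 0 → j = 0 := by
    intro j hj
    calc j = (∑ i, a i * ε * b i) * j * (∑ k, a k * ε * b k) := by rw [h1, one_mul, mul_one]
      _ = ∑ i, ∑ k, a i * (ε * b i * j * a k * ε) * b k := by
          rw [Finset.sum_mul, Finset.sum_mul]
          refine Finset.sum_congr rfl (fun i _ => ?_)
          rw [Finset.mul_sum]
          refine Finset.sum_congr rfl (fun k _ => ?_)
          simp only [mul_assoc]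
      _ = 0 := by
          refine Finset.sum_eq_zero (fun i _ => Finset.sum_eq_zero (fun k _ => ?_))
          rw [hR0 _ (hMR j hj i k), mul_zero, zero_mul]
  exact hz0 (hJzero z hπz)

end Cfsg.Agent.Lib.Helper85.BrandtAlg2
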