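import Mathlib
import Cfsg.Agent.Lib.Helper81.ROBase

/-!
# Project RL (helper48, S2343): piece RL-SEP (helper85, job 3780)

The twisted characters `(b, c) ↦ χ ((s θ s)⁻¹ b, (s² θ s)⁻¹ (c - a b))` determine `(a, s)`.
-/

set_option autoImplicit false

namespace Cfsg.Agent.Lib.Helper48.RL

open Cfsg.Agent.Lib.Helper81.RO

variable {F : Type*} [Field F] [Finite F] [CharP F 3] {G : Type*} [Group G] [Finite G]
variable {θ : F →+* F} {T : F → F → F → G} {H : Fˣ → G} {w : G}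

-- piece RL-SEP
theorem char_sep (θθ : ∀ x : F, θ (θ x) = x ^ 3) (χ : F × F → ℂ) (hχ0 : χ 0 = 1)
    (hχadd : ∀ x y, χ (x + y) = χ x * χ y) (hχ1 : χ (0, 1) ≠ 1) (a a' : F) (s s' : Fˣ)
    (heq : ∀ b c : F, χ (((s : F) * θ s)⁻¹ * b, ((s : F) ^ 2 * θ s)⁻¹ * (c - a * b)) =
      χ (((s' : F) * θ s')⁻¹ * b, ((s' : F) ^ 2 * θ s')⁻¹ * (c - a' * b))) :
    a = a' ∧ s = s' := by
  have hχne : ∀ x, χ x ≠ 0 := by
    intro x hx
    have := hχadd x (-x)
    rw [add_neg_cancel, hχ0, hx, zero_mul] at this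
    exact one_ne_zero this
  have key : ∀ m : F, (∀ c : F, χ (0, m * c) = 1) → m = 0 := by
    intro m hm
    by_contra hne
    apply hχ1
    have := hm m⁻¹
    rwa [mul_inv_cancel₀ hne] at this
  have hs0 : (s : F) ≠ 0 := s.ne_zero
  have hs0' : (s' : F) ≠ 0 := s'.ne_zero
  have hθs : θ (s : F) ≠ 0 := by
    intro h0
    exact hs0 (θ.injective (h0.trans (map_zero θ).symm))
  have hθs' : θ (s' : F) ≠ 0 := by
    intro h0
    exact hs0' (θ.injective (h0.trans (map_zero θ).symm))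
  obtain ⟨μ, hμ⟩ : ∃ μ, μ = ((s : F) ^ 2 * θ s)⁻¹ := ⟨_, rfl⟩
  obtain ⟨μ', hμ'⟩ : ∃ μ', μ' = ((s' : F) ^ 2 * θ s')⁻¹ := ⟨_, rfl⟩
  rw [← hμ, ← hμ'] at heq
  have h1 : μ = μ' := by
    have : μ - μ' = 0 := by
      apply key
      intro c
      have e := heq 0 c
      simp only [mul_zero, sub_zero] at e
      have e2 : ((0 : F), (μ - μ') * c) + (0, μ' * c) = (0, μ * c) :=
        Prod.ext (add_zero 0) (by show (μ - μ') * c + μ' * c = μ * c; ring)
      have e3 := hχadd ((0 : F), (μ - μ') * c) (0, μ' * c)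
      rw [e2, e] at e3
      exact mul_right_cancel₀ (hχne _) (e3.symm.trans (one_mul _).symm)
    exact sub_eq_zero.mp this
  have h2 : (s : F) ^ 2 * θ s = (s' : F) ^ 2 * θ s' := by
    rw [hμ, hμ'] at h1
    exact inv_injective h1
  have ht : ((s : F) * (s' : F)⁻¹) ^ 2 * θ ((s : F) * (s' : F)⁻¹) = 1 := by
    have e : ((s : F) * (s' : F)⁻¹) ^ 2 * (θ (s : F) * (θ (s' : F))⁻¹) =
        ((s : F) ^ 2 * θ s) * ((s' : F) ^ 2 * θ s')⁻¹ := by
      ring
    rw [map_mul, map_inv₀, e, h2, mul_inv_cancel₀ (mul_ne_zero (pow_ne_zero 2 hs0') hθs')]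
  have ht1 : (s : F) * (s' : F)⁻¹ = 1 := by
    obtain ⟨t, htdef⟩ : ∃ t, t = (s : F) * (s' : F)⁻¹ := ⟨_, rfl⟩
    rw [← htdef] at ht ⊢
    have h3 : θ t ^ 2 * t ^ 3 = 1 := by
      have := congrArg θ ht
      rw [map_mul, map_pow, θθ, map_one] at this
      exact this
    linear_combination (-1 : F) * t * h3 + (t ^ 2 * θ t + 1) * ht
  have hss : s = s' := Units.ext ((mul_inv_eq_one₀ hs0').mp ht1)
  refine ⟨?_, hss⟩
  rw [← hss, ← h1] at heq
  have hμ0 : μ ≠ 0 := by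
    rw [hμ]; exact inv_ne_zero (mul_ne_zero (pow_ne_zero 2 hs0) hθs)
  have h4 : μ * (a' - a) = 0 := by
    apply key
    intro b
    have e := heq b 0
    have e2 : ((0 : F), μ * (a' - a) * b) + (((s : F) * θ s)⁻¹ * b, μ * (0 - a' * b)) =
        (((s : F) * θ s)⁻¹ * b, μ * (0 - a * b)) :=
      Prod.ext (zero_add _)
        (by show μ * (a' - a) * b + μ * (0 - a' * b) = μ * (0 - a * b); ring)
    have e3 := hχadd ((0 : F), μ * (a' - a) * b) (((s : F) * θ s)⁻¹ * b, μ * (0 - a' * b))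
    rw [e2, e] at e3
    exact mul_right_cancel₀ (hχne _) (e3.symm.trans (one_mul _).symm)
  rcases mul_eq_zero.mp h4 with h | h
  · exact absurd h hμ0
  · exact (sub_eq_zero.mp h).symm

end Cfsg.Agent.Lib.Helper48.RL
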