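import Mathlib

/-!
# S4130 project, piece SOLV (helper85 for helper66)

Squarefree class sizes imply solvability, given the normal `p`-complement theorem for the
smallest prime as a hypothesis.
-/

set_option autoImplicit false

namespace Cfsg.Agent.Lib.Helper85.SqfSOLV

universe u

/-- For `K` normal, the relative index of `H` in `K` divides the index of `H`. -/
lemma relIndex_dvd_index_normal_right {G : Type*} [Group G] [Finite G] (H K : Subgroup G)
    [K.Normal] : H.relIndex K ∣ H.index := by
  have h1 : H.relIndex K * K.index = (H ⊓ K).index := by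
    rw [← Subgroup.inf_relIndex_right H K]
    exact Subgroup.relIndex_mul_index inf_le_right
  have h2 : K.relIndex H * H.index = (H ⊓ K).index := by
    rw [← Subgroup.inf_relIndex_left H K]
    exact Subgroup.relIndex_mul_index inf_le_left
  obtain ⟨t, ht⟩ := Subgroup.relIndex_dvd_index_of_normal K H
  have h0 : K.relIndex H ≠ 0 := Subgroup.index_ne_zero_of_finite
  refine ⟨t, ?_⟩
  have h3 : K.relIndex H * H.index = K.relIndex H * (H.relIndex K * t) := by
    rw [h2, ← h1, ht]
    ring
  exact Nat.eq_of_mul_eq_mul_left (Nat.pos_of_ne_zero h0) h3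

lemma centralizer_subgroup_index_dvd {G : Type*} [Group G] [Finite G] (K : Subgroup G)
    [K.Normal] (x : K) :
    (Subgroup.centralizer ({x} : Set K)).index ∣
      (Subgroup.centralizer ({(x : G)} : Set G)).index := by
  have heq : Subgroup.centralizer ({x} : Set K) =
      (Subgroup.centralizer ({(x : G)} : Set G)).subgroupOf K := by
    ext y
    rw [Subgroup.mem_subgroupOf, Subgroup.mem_centralizer_iff, Subgroup.mem_centralizer_iff]
    constructor
    · intro h g hg
      rw [Set.mem_singleton_iff] at hg
      subst hg
      exact congrArg Subtype.val (h x (Set.mem_singleton x))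
    · intro h g hg
      rw [Set.mem_singleton_iff] at hg
      subst hg
      exact Subtype.ext (h (g : G) (Set.mem_singleton _))
  rw [heq]
  exact relIndex_dvd_index_normal_right _ K

theorem solvable_of_sqf {G : Type u} [Group G] [Finite G]
    (hC : ∀ (H : Type u) [Group H] [Finite H] (p : ℕ) [Fact p.Prime],
      (∀ r : ℕ, r.Prime → r ∣ Nat.card H → p ≤ r) →
      (∀ y : H, ¬ p ^ 2 ∣ (Subgroup.centralizer ({y} : Set H)).index) →
      ∃ K : Subgroup H, ∀ g : H, g ∈ K ↔ (orderOf g).Coprime p)
    (hsq : ∀ x : G, Squarefree (Subgroup.centralizer ({x} : Set G)).index) : Group.IsSolvable G := by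
  obtain ⟨n, hn⟩ : ∃ n, Nat.card G = n := ⟨_, rfl⟩
  induction n using Nat.strong_induction_on generalizing G with
  | _ n ih =>
    by_cases h1 : Nat.card G = 1
    · haveI : Subsingleton G := (Nat.card_eq_one_iff_unique.mp h1).1
      infer_instance
    · obtain ⟨p, hpdef⟩ : ∃ p, p = (Nat.card G).minFac := ⟨_, rfl⟩
      have hp : p.Prime := hpdef ▸ Nat.minFac_prime h1
      haveI : Fact p.Prime := ⟨hp⟩
      have hpdvd : p ∣ Nat.card G := hpdef ▸ Nat.minFac_dvd _
      obtain ⟨K, hK⟩ := hC G p
        (fun r hr hrd => hpdef ▸ Nat.minFac_le_of_dvd hr.two_le hrd)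
        (fun y hy => by
          have h := (hsq y) p (by rw [← pow_two]; exact hy)
          exact hp.ne_one (Nat.isUnit_iff.mp h))
      haveI hKn : K.Normal := by
        constructor
        intro k hk g
        rw [hK] at hk ⊢
        have h : orderOf (g * k * g⁻¹) = orderOf k :=
          orderOf_injective (MulAut.conj g).toMonoidHom (MulAut.conj g).injective k
        rw [h]
        exact hk
      obtain ⟨g₀, hg₀⟩ := exists_prime_orderOf_dvd_card' p hpdvd
      have hg₀K : g₀ ∉ K := by
        rw [hK, hg₀, Nat.coprime_self]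
        exact hp.ne_one
      have hKlt : Nat.card K < n := by
        rw [← hn]
        refine lt_of_le_of_ne (Subgroup.card_le_card_group K) (fun h => hg₀K ?_)
        rw [Subgroup.eq_top_of_card_eq K h]
        exact Subgroup.mem_top g₀
      have hsqK : ∀ x : K, Squarefree (Subgroup.centralizer ({x} : Set K)).index := fun x =>
        Squarefree.squarefree_of_dvd (centralizer_subgroup_index_dvd K x) (hsq x)
      haveI hKsolv : Group.IsSolvable K := ih (Nat.card K) hKlt hsqK rfl
      have hpg : IsPGroup p (G ⧸ K) := by
        intro y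
        obtain ⟨g, rfl⟩ := QuotientGroup.mk_surjective y
        obtain ⟨a, m, hm, ham⟩ :=
          Nat.exists_eq_pow_mul_and_not_dvd (orderOf_pos g).ne' p hp.ne_one
        refine ⟨a, ?_⟩
        have hdvd : orderOf (g ^ p ^ a) ∣ m := by
          apply orderOf_dvd_of_pow_eq_one
          rw [← pow_mul, ← ham, pow_orderOf_eq_one]
        have hcop : (orderOf (g ^ p ^ a)).Coprime p :=
          Nat.Coprime.coprime_dvd_left hdvd ((Nat.Prime.coprime_iff_not_dvd hp).mpr hm).symm
        have hmem : g ^ p ^ a ∈ K := (hK _).mpr hcop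
        rw [← QuotientGroup.mk_pow]
        exact (QuotientGroup.eq_one_iff _).mpr hmem
      haveI : Group.IsNilpotent (G ⧸ K) := hpg.isNilpotent
      haveI : Group.IsSolvable (G ⧸ K) := inferInstance
      refine Group.isSolvable_of_ker_le_range K.subtype (QuotientGroup.mk' K) ?_
      rw [QuotientGroup.ker_mk', Subgroup.range_subtype]

end Cfsg.Agent.Lib.Helper85.SqfSOLV
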