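import Mathlib
import Cfsg.Agent.Lib.Helper81.AQDefs

/-!
# Project AQ (helper81, S3911), piece CYCB (duplicate `AQCYCBb`)

If `G` has an element of order `p ^ 2` and any two abelian subgroups of the same order are
conjugate, then every abelian `p`-subgroup of `G` is cyclic.
-/

set_option autoImplicit false

namespace Cfsg.Agent.Lib.Helper81.AQ

/-- a non-cyclic finite commutative `p`-group has a subgroup of order `p ^ 2` of exponent `p` -/
theorem aqcycbb_key {A : Type*} [CommGroup A] [Finite A] (p : ℕ) [Fact p.Prime]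
    (hA : IsPGroup p A) (hnc : ¬ IsCyclic A) :
    ∃ K : Subgroup A, Nat.card K = p ^ 2 ∧ ∀ k ∈ K, k ^ p = 1 := by
  have hp := (Fact.out : p.Prime)
  obtain ⟨u, hu⟩ := Monoid.exists_orderOf_eq_exponent (G := A) Monoid.ExponentExists.of_finite
  obtain ⟨e, he⟩ := (IsPGroup.iff_orderOf.mp hA) u
  have hexp : ∀ a : A, a ^ (p ^ e) = 1 := by
    intro a
    rw [← he, hu]
    exact Monoid.pow_exponent_eq_one a
  have hU : Subgroup.zpowers u ≠ ⊤ := fun h => hnc (isCyclic_iff_exists_zpowers_eq_top.mpr ⟨u, h⟩)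
  have hidx : p ∣ (Subgroup.zpowers u).index := by
    have h1 : (Subgroup.zpowers u).index ≠ 1 := fun h => hU (Subgroup.index_eq_one.mp h)
    obtain ⟨m, hm⟩ := IsPGroup.iff_card.mp hA
    have h2 : (Subgroup.zpowers u).index ∣ p ^ m := by
      rw [← hm]
      exact Subgroup.index_dvd_card _
    obtain ⟨i, -, hi⟩ := (Nat.dvd_prime_pow hp).mp h2
    rw [hi] at h1 ⊢
    cases i with
    | zero => exact absurd (pow_zero p) h1
    | succ i => exact dvd_pow_self p (Nat.succ_ne_zero i)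
  have hcard : p ∣ Nat.card (A ⧸ Subgroup.zpowers u) := hidx
  obtain ⟨wbar, hwbar⟩ := exists_prime_orderOf_dvd_card' p hcard
  obtain ⟨w, rfl⟩ := QuotientGroup.mk_surjective wbar
  have hw1 : w ∉ Subgroup.zpowers u := by
    intro h
    have h0 : (QuotientGroup.mk w : A ⧸ Subgroup.zpowers u) = 1 :=
      (QuotientGroup.eq_one_iff w).mpr h
    rw [h0, orderOf_one] at hwbar
    exact hp.one_lt.ne hwbar
  have hw2 : w ^ p ∈ Subgroup.zpowers u := by
    rw [← QuotientGroup.eq_one_iff, QuotientGroup.mk_pow]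
    have h0 := pow_orderOf_eq_one (QuotientGroup.mk w : A ⧸ Subgroup.zpowers u)
    rw [hwbar] at h0
    exact h0
  obtain ⟨k, hk⟩ := Subgroup.mem_zpowers_iff.mp hw2
  have he0 : e ≠ 0 := by
    intro h0
    apply hw1
    have h1 := hexp w
    rw [h0, pow_zero, pow_one] at h1
    rw [h1]
    exact one_mem _
  obtain ⟨e', rfl⟩ : ∃ e', e = e' + 1 := ⟨e - 1, by omega⟩
  have hk1 : u ^ (k * ((p ^ e' : ℕ) : ℤ)) = 1 := by
    rw [zpow_mul, hk, zpow_natCast, ← pow_mul, ← pow_succ']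
    exact hexp w
  have hk2 : ((p ^ (e' + 1) : ℕ) : ℤ) ∣ k * ((p ^ e' : ℕ) : ℤ) := by
    rw [← he]
    exact orderOf_dvd_iff_zpow_eq_one.mpr hk1
  have hpk : (p : ℤ) ∣ k := by
    have h3 : (p : ℤ) * ((p ^ e' : ℕ) : ℤ) ∣ k * ((p ^ e' : ℕ) : ℤ) := by
      have h4 : ((p ^ (e' + 1) : ℕ) : ℤ) = (p : ℤ) * ((p ^ e' : ℕ) : ℤ) := by
        push_cast
        ring
      rw [← h4]
      exact hk2
    have hc : ((p ^ e' : ℕ) : ℤ) ≠ 0 := by exact_mod_cast (pow_pos hp.pos e').ne'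
    exact (mul_dvd_mul_iff_right hc).mp h3
  obtain ⟨k', rfl⟩ := hpk
  obtain ⟨v, hv⟩ : ∃ v : A, v = w * (u ^ k')⁻¹ := ⟨_, rfl⟩
  have hvp : v ^ p = 1 := by
    rw [hv, mul_pow, inv_pow, ← zpow_natCast (u ^ k') p, ← zpow_mul, mul_comm k' (p : ℤ), hk]
    exact mul_inv_cancel _
  have hvU : v ∉ Subgroup.zpowers u := by
    intro h
    apply hw1
    have h0 : w = v * u ^ k' := by
      rw [hv]
      group
    rw [h0]
    exact mul_mem h (Subgroup.zpow_mem_zpowers u k')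
  -- the p-torsion subgroup
  obtain ⟨T, hT⟩ : ∃ T : Subgroup A, T = (powMonoidHom p : A →* A).ker := ⟨_, rfl⟩
  have hmemT : ∀ a : A, a ∈ T ↔ a ^ p = 1 := by
    intro a
    rw [hT, MonoidHom.mem_ker, powMonoidHom_apply]
  obtain ⟨u0, hu0⟩ : ∃ u0 : A, u0 = u ^ (p ^ e') := ⟨_, rfl⟩
  have hu0p : u0 ^ p = 1 := by
    rw [hu0, ← pow_mul, ← pow_succ]
    exact hexp u
  have hu01 : u0 ≠ 1 := by
    rw [hu0]
    apply pow_ne_one_of_lt_orderOf (pow_pos hp.pos e').ne'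
    rw [he]
    exact Nat.pow_lt_pow_right hp.one_lt (Nat.lt_succ_self e')
  have hle : Subgroup.zpowers u0 ≤ T := by
    rw [Subgroup.zpowers_le]
    exact (hmemT u0).mpr hu0p
  have hle2 : Subgroup.zpowers u0 ≤ Subgroup.zpowers u := by
    rw [Subgroup.zpowers_le, hu0]
    exact Subgroup.npow_mem_zpowers u _
  have hvT : v ∈ T := (hmemT v).mpr hvp
  obtain ⟨a, ha⟩ := IsPGroup.iff_card.mp (hA.to_subgroup T)
  have hdvd : Nat.card (Subgroup.zpowers u0) ∣ Nat.card T := Subgroup.card_dvd_of_le hle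
  rw [ha] at hdvd
  obtain ⟨b, hba, hb⟩ := (Nat.dvd_prime_pow hp).mp hdvd
  have hb0 : b ≠ 0 := by
    intro h0
    rw [h0, pow_zero] at hb
    have h1 : Subgroup.zpowers u0 = ⊥ := Subgroup.card_eq_one.mp hb
    apply hu01
    have h2 : u0 ∈ (⊥ : Subgroup A) := by
      rw [← h1]
      exact Subgroup.mem_zpowers u0
    exact Subgroup.mem_bot.mp h2
  have hba' : b ≠ a := by
    intro h0
    have h1 : Subgroup.zpowers u0 = T :=
      Subgroup.eq_of_le_of_card_ge hle (by rw [ha, hb, h0])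
    apply hvU
    apply hle2
    rw [h1]
    exact hvT
  have ha2 : 2 ≤ a := by omega
  have hdvd2 : p ^ 2 ∣ Nat.card T := by
    rw [ha]
    exact pow_dvd_pow p ha2
  obtain ⟨K, hK⟩ := Sylow.exists_subgroup_card_pow_prime p hdvd2
  refine ⟨K.map T.subtype, ?_, ?_⟩
  · rw [Subgroup.card_subtype]
    exact hK
  · rintro _ ⟨t, -, rfl⟩
    exact (hmemT _).mp t.2

variable {G : Type*} [Group G]

open scoped IsMulCommutative in
-- piece CYCB
theorem abelian_cyclic [Finite G] (hB : Star G) (p : ℕ) [Fact p.Prime] (x : G)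
    (hx : orderOf x = p ^ 2) (Q : Subgroup G) (hQ : IsPGroup p Q) (hQc : IsMulCommutative ↥Q) :
    IsCyclic Q := by
  by_contra hnc
  have hp := (Fact.out : p.Prime)
  obtain ⟨K, hK, hKp⟩ := aqcycbb_key (A := ↥Q) p hQ hnc
  have hEcard : Nat.card (K.map Q.subtype) = p ^ 2 := by
    rw [Subgroup.card_subtype]
    exact hK
  have hEp : ∀ k ∈ K.map Q.subtype, k ^ p = 1 := by
    rintro _ ⟨k, hk, rfl⟩
    have h0 := hKp k hk
    rw [← map_pow, h0, map_one]
  have hle : K.map Q.subtype ≤ Q := Subgroup.map_subtype_le K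
  have hEc : IsMulCommutative ↥(K.map Q.subtype) := by
    refine ⟨⟨fun a b => ?_⟩⟩
    apply Subtype.ext
    have h1 := hQc.is_comm.comm (⟨a.1, hle a.2⟩ : ↥Q) ⟨b.1, hle b.2⟩
    have h2 : (a.1 : G) * b.1 = b.1 * a.1 := congrArg (fun t : ↥Q => (t : G)) h1
    exact h2
  obtain ⟨g, hg⟩ := hB (Subgroup.zpowers x) (K.map Q.subtype) inferInstance hEc
    (by rw [Nat.card_zpowers, hx, hEcard])
  have hxE : g * x * g⁻¹ ∈ K.map Q.subtype := by
    rw [hg]
    exact ⟨x, Subgroup.mem_zpowers x, rfl⟩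
  have h1 := hEp _ hxE
  rw [conj_pow] at h1
  have h2 : x ^ p = 1 := by
    have h0 : x ^ p = g⁻¹ * (g * x ^ p * g⁻¹) * g := by group
    rw [h0, h1]
    group
  have h3 : orderOf x ∣ p := orderOf_dvd_of_pow_eq_one h2
  rw [hx] at h3
  have h4 : p ^ 2 ≤ p := Nat.le_of_dvd hp.pos h3
  have h5 : p < p ^ 2 := by nlinarith [hp.two_le]
  omega

end Cfsg.Agent.Lib.Helper81.AQ
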