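import Mathlib

set_option autoImplicit false

namespace Cfsg.Agent.Lib.Helper85.FixTable

open Finset

/-- For a finite `p`-group acting on a finite set and an invariant function with values in a
ring of characteristic `p`, the sum over the whole set equals the sum over the fixed points. -/
theorem sum_eq_sum_fixed {Γ : Type*} [Group Γ] {p : ℕ} [Fact p.Prime] (hΓ : IsPGroup p Γ)
    {S : Type*} [Fintype S] [MulAction Γ S] [Fintype {s : S // ∀ g : Γ, g • s = s}]
    {F : Type*} [CommRing F] [CharP F p]
    (f : S → F) (hf : ∀ (g : Γ) (s : S), f (g • s) = f s) :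
    ∑ s, f s = ∑ s : {s : S // ∀ g : Γ, g • s = s}, f s.1 := by
  classical
  rw [← Finset.sum_fiberwise_of_maps_to (g := f) (t := univ.image f)
    (fun x _ => mem_image_of_mem f (mem_univ x)) f]
  rw [← Finset.sum_fiberwise_of_maps_to (g := fun s : {s : S // ∀ g : Γ, g • s = s} => f s.1)
    (t := univ.image f) (fun x _ => mem_image_of_mem f (mem_univ x.1))
    (fun s : {s : S // ∀ g : Γ, g • s = s} => f s.1)]
  apply Finset.sum_congr rfl
  intro v _
  have h1 : ∑ x ∈ univ.filter (fun x => f x = v), f x =
      ((univ.filter (fun x : S => f x = v)).card : F) * v := by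
    rw [Finset.sum_congr rfl (fun x hx => (Finset.mem_filter.mp hx).2), Finset.sum_const,
      nsmul_eq_mul]
  have h2 : ∑ x ∈ univ.filter (fun x : {s : S // ∀ g : Γ, g • s = s} => f x.1 = v), f x.1 =
      ((univ.filter (fun x : {s : S // ∀ g : Γ, g • s = s} => f x.1 = v)).card : F) * v := by
    rw [Finset.sum_congr rfl (fun x hx => (Finset.mem_filter.mp hx).2), Finset.sum_const,
      nsmul_eq_mul]
  rw [h1, h2]
  congr 1
  -- the fibre as a sub-action
  let T : SubMulAction Γ S :=
    { carrier := {s | f s = v}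
      smul_mem' := fun g s hs => by
        show f (g • s) = v
        rw [hf]; exact hs }
  have hmod := hΓ.card_modEq_card_fixedPoints (↥T)
  have e1 : Nat.card ↥T = (univ.filter (fun x : S => f x = v)).card := by
    rw [Nat.card_eq_fintype_card, ← Fintype.card_subtype]
    exact Fintype.card_congr (Equiv.refl _)
  have e2 : Nat.card ↥(MulAction.fixedPoints Γ ↥T) =
      (univ.filter (fun x : {s : S // ∀ g : Γ, g • s = s} => f x.1 = v)).card := by
    rw [Nat.card_eq_fintype_card, ← Fintype.card_subtype]
    apply Fintype.card_congr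
    exact
      { toFun := fun x => ⟨⟨x.1.1, fun g => congrArg Subtype.val (x.2 g)⟩, x.1.2⟩
        invFun := fun y => ⟨⟨y.1.1, y.2⟩, fun g => Subtype.ext (y.1.2 g)⟩
        left_inv := fun x => rfl
        right_inv := fun y => rfl }
  rw [e1, e2] at hmod
  exact (CharP.natCast_eq_natCast F p).mpr hmod

/-- Restricting an equivariant pair of mutually inverse "tables" to the fixed points of a
`p`-group keeps the (one-sided) inverse relation, in characteristic `p`. -/
theorem restricted_inverse {Γ : Type*} [Group Γ] {p : ℕ} [Fact p.Prime] (hΓ : IsPGroup p Γ)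
    {A B : Type*} [Fintype B] [DecidableEq A] [MulAction Γ A] [MulAction Γ B]
    [Fintype {b : B // ∀ g : Γ, g • b = b}]
    {F : Type*} [CommRing F] [CharP F p] (X : B → A → F) (Y : A → B → F)
    (hX : ∀ (g : Γ) (b : B) (a : A), X (g • b) (g • a) = X b a)
    (hY : ∀ (g : Γ) (a : A) (b : B), Y (g • a) (g • b) = Y a b)
    (CO : ∀ a a' : A, ∑ b, Y a b * X b a' = if a = a' then 1 else 0)
    (a a' : {a : A // ∀ g : Γ, g • a = a}) :
    ∑ b : {b : B // ∀ g : Γ, g • b = b}, Y a.1 b.1 * X b.1 a'.1 = if a = a' then 1 else 0 := by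
  have h := sum_eq_sum_fixed hΓ (fun b : B => Y a.1 b * X b a'.1) (by
    intro g b
    show Y a.1 (g • b) * X (g • b) a'.1 = Y a.1 b * X b a'.1
    have h1 : Y a.1 (g • b) = Y a.1 b := by
      conv_lhs => rw [← a.2 g]
      exact hY g a.1 b
    have h2 : X (g • b) a'.1 = X b a'.1 := by
      conv_lhs => rw [← a'.2 g]
      exact hX g b a'.1
    rw [h1, h2])
  rw [← h, CO]
  by_cases haa : a = a'
  · rw [if_pos haa, if_pos (congrArg Subtype.val haa)]
  · rw [if_neg haa, if_neg (fun h => haa (Subtype.ext h))]

/-- A left inverse of a "square" table is a right inverse. -/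
theorem right_inv_of_left_inv {F : Type*} [CommRing F] {A B : Type*} [Fintype A] [Fintype B]
    [DecidableEq A] [DecidableEq B] (hcard : Fintype.card A = Fintype.card B)
    (X : B → A → F) (Y : A → B → F)
    (CO : ∀ a a' : A, ∑ b, Y a b * X b a' = if a = a' then 1 else 0) (b b' : B) :
    ∑ a, X b a * Y a b' = if b = b' then 1 else 0 := by
  have h1 : (Matrix.of Y : Matrix A B F) * (Matrix.of X : Matrix B A F) = 1 := by
    ext a a'
    rw [Matrix.mul_apply, Matrix.one_apply]
    exact CO a a'
  have h2 := (Matrix.mul_eq_one_comm_of_card_eq A B F hcard).mp h1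
  have h3 := congrFun (congrFun h2 b) b'
  rw [Matrix.mul_apply, Matrix.one_apply] at h3
  exact h3

/-- Equal cardinalities from a two-sided inverse over a field. -/
theorem card_eq_of_two_sided {F : Type*} [Field F] {A B : Type*} [Fintype A] [Fintype B]
    [DecidableEq A] [DecidableEq B] (X : B → A → F) (Y : A → B → F)
    (CO : ∀ a a' : A, ∑ b, Y a b * X b a' = if a = a' then 1 else 0)
    (RO : ∀ b b' : B, ∑ a, X b a * Y a b' = if b = b' then 1 else 0) :
    Fintype.card A = Fintype.card B := by
  have h1 : (Matrix.of Y : Matrix A B F) * (Matrix.of X : Matrix B A F) = 1 := by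
    ext a a'
    rw [Matrix.mul_apply, Matrix.one_apply]
    exact CO a a'
  have h2 : (Matrix.of X : Matrix B A F) * (Matrix.of Y : Matrix A B F) = 1 := by
    ext b b'
    rw [Matrix.mul_apply, Matrix.one_apply]
    exact RO b b'
  exact Matrix.square_of_invertible _ _ h1 h2

/-- Lifting invertibility of a table from a residue field to the complex numbers. -/
theorem exists_complex_inverse {R F : Type*} [CommRing R] [Field F] (φ : R →+* F)
    (ι : R →+* ℂ) (hι : Function.Injective ι)
    {A B : Type*} [Fintype A] [Fintype B] [DecidableEq A] [DecidableEq B]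
    (X : B → A → R) (Y : A → B → F)
    (CO : ∀ a a' : A, ∑ b, Y a b * φ (X b a') = if a = a' then 1 else 0)
    (RO : ∀ b b' : B, ∑ a, φ (X b a) * Y a b' = if b = b' then 1 else 0) :
    ∃ Z : A → B → ℂ, (∀ a a' : A, ∑ b, Z a b * ι (X b a') = if a = a' then 1 else 0) ∧
      (∀ b b' : B, ∑ a, ι (X b a) * Z a b' = if b = b' then 1 else 0) := by
  have hcard : Fintype.card A = Fintype.card B :=
    card_eq_of_two_sided (fun b a => φ (X b a)) Y CO RO
  let e : A ≃ B := Fintype.equivOfCardEq hcard
  let M : Matrix A A R := Matrix.of (fun i j => X (e i) j)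
  have hleft : (Matrix.of (fun i j => Y i (e j)) : Matrix A A F) * (φ.mapMatrix M) = 1 := by
    ext a a'
    rw [Matrix.mul_apply, Matrix.one_apply]
    rw [← CO a a']
    exact Equiv.sum_comp e (fun b => Y a b * φ (X b a'))
  have hdetF : IsUnit (φ.mapMatrix M).det := Matrix.isUnit_det_of_left_inverse hleft
  have hdetR : M.det ≠ 0 := by
    intro h0
    rw [← RingHom.map_det, h0, map_zero] at hdetF
    exact not_isUnit_zero hdetF
  have hdetC : (ι.mapMatrix M).det ≠ 0 := by
    rw [← RingHom.map_det]
    intro h0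
    exact hdetR (hι (by rw [h0, map_zero]))
  have hu : IsUnit (ι.mapMatrix M).det := isUnit_iff_ne_zero.mpr hdetC
  refine ⟨fun a b => (ι.mapMatrix M)⁻¹ a (e.symm b), ?_, ?_⟩
  · intro a a'
    have h := congrFun (congrFun (Matrix.nonsing_inv_mul (ι.mapMatrix M) hu) a) a'
    rw [Matrix.mul_apply, Matrix.one_apply] at h
    rw [← h]
    rw [← Equiv.sum_comp e]
    apply Finset.sum_congr rfl
    intro k _
    show (ι.mapMatrix M)⁻¹ a (e.symm (e k)) * ι (X (e k) a') = _
    rw [Equiv.symm_apply_apply]
    rfl
  · intro b b'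
    have h := congrFun (congrFun (Matrix.mul_nonsing_inv (ι.mapMatrix M) hu) (e.symm b))
      (e.symm b')
    rw [Matrix.mul_apply, Matrix.one_apply] at h
    have h' : ∑ a, ι (X b a) * (ι.mapMatrix M)⁻¹ a (e.symm b') =
        if e.symm b = e.symm b' then 1 else 0 := by
      rw [← h]
      apply Finset.sum_congr rfl
      intro a _
      show ι (X b a) * _ = ι (X (e (e.symm b)) a) * _
      rw [Equiv.apply_symm_apply]
    rw [h']
    by_cases hb : b = b'
    · rw [if_pos hb, if_pos (congrArg e.symm hb)]
    · rw [if_neg hb, if_neg (fun h => hb (e.symm.injective h))]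

/-- Brauer's permutation lemma for an invertible complex table: compatible permutations of
rows and columns have the same number of fixed points. -/
theorem card_fixed_eq {A B : Type*} [Fintype A] [Fintype B] [DecidableEq A] [DecidableEq B]
    (X : B → A → ℂ) (Z : A → B → ℂ)
    (CO : ∀ a a' : A, ∑ b, Z a b * X b a' = if a = a' then 1 else 0)
    (RO : ∀ b b' : B, ∑ a, X b a * Z a b' = if b = b' then 1 else 0)
    (σA : Equiv.Perm A) (σB : Equiv.Perm B) (h : ∀ b a, X (σB b) (σA a) = X b a) :
    Fintype.card {b : B // σB b = b} = Fintype.card {a : A // σA a = a} := by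
  have h1 : (Fintype.card {b : B // σB b = b} : ℂ) = ∑ b : B, if σB b = b then (1 : ℂ) else 0 := by
    rw [Finset.sum_boole, Fintype.card_subtype]
  have h2 : (Fintype.card {a : A // σA a = a} : ℂ) = ∑ a : A, if σA a = a then (1 : ℂ) else 0 := by
    rw [Finset.sum_boole, Fintype.card_subtype]
  apply Nat.cast_injective (R := ℂ)
  rw [h1, h2]
  calc ∑ b : B, (if σB b = b then (1 : ℂ) else 0)
      = ∑ b : B, ∑ a : A, X (σB b) a * Z a b := by
        apply Finset.sum_congr rfl
        intro b _
        rw [RO]
    _ = ∑ b : B, ∑ a : A, X (σB b) (σA a) * Z (σA a) b := by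
        apply Finset.sum_congr rfl
        intro b _
        exact (Equiv.sum_comp σA (fun a => X (σB b) a * Z a b)).symm
    _ = ∑ b : B, ∑ a : A, Z (σA a) b * X b a := by
        apply Finset.sum_congr rfl
        intro b _
        apply Finset.sum_congr rfl
        intro a _
        rw [h, mul_comm]
    _ = ∑ a : A, ∑ b : B, Z (σA a) b * X b a := Finset.sum_comm
    _ = ∑ a : A, if σA a = a then (1 : ℂ) else 0 := by
        apply Finset.sum_congr rfl
        intro a _
        rw [CO]

end Cfsg.Agent.Lib.Helper85.FixTable
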