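import Mathlib
import Cfsg.Prelude.Def_SporadicB
import Cfsg.Agent.Lib.Helper70.SchurTwoA
import Cfsg.Agent.Lib.Helper70.SchurTwoC
import Cfsg.Agent.Lib.Helper61.AltInvConj
import Cfsg.Agent.Lib.Helper55.AltDih

/-!
# S0447 part 1 (piece P1 for helper70, by helper85)

A non-split double cover of `A_n`, `n ≤ 7`, has a unique involution.
-/

set_option autoImplicit false

namespace Cfsg.Agent.Lib.Helper85

open Cfsg.Agent.Lib.Helper70 Cfsg.Agent.Lib.Helper61 Cfsg.Agent.Lib.Helper55

theorem double_cover_involution_unique : ∀ (n : ℕ) (H : Type) (_ : Group H) (_ : Finite H), n ≤ 7 →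
    Cfsg.IsNonsplitDoubleCover H (alternatingGroup (Fin n)) →
      ∀ x y : H, orderOf x = 2 → orderOf y = 2 → x = y := by
  intro n H _ _ hn hcov
  classical
  obtain ⟨hZ2, ⟨e⟩, hns⟩ := hcov
  obtain ⟨Z, hZdef⟩ : ∃ Z : Subgroup H, Z = Subgroup.center H := ⟨_, rfl⟩
  rw [← hZdef] at hZ2 hns
  let σ : H →* alternatingGroup (Fin n) := e.toMonoidHom.comp (QuotientGroup.mk' (Subgroup.center H))
  have hσsurj : Function.Surjective σ :=
    e.surjective.comp (QuotientGroup.mk'_surjective (Subgroup.center H))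
  have hker : ∀ g : H, g ∈ σ.ker ↔ g ∈ Z := by
    intro g
    rw [MonoidHom.mem_ker, hZdef]
    show e (QuotientGroup.mk' (Subgroup.center H) g) = 1 ↔ g ∈ Subgroup.center H
    rw [map_eq_one_iff e e.injective, QuotientGroup.mk'_apply, QuotientGroup.eq_one_iff]
  have hc : σ.ker ≤ Subgroup.center H := fun g hg => hZdef ▸ (hker g).mp hg
  -- the central involution
  obtain ⟨z, hzZ, hz1⟩ : ∃ z ∈ Z, z ≠ 1 := by
    by_contra hno
    push_neg at hno
    have hbot : Z = ⊥ := (Subgroup.eq_bot_iff_forall Z).mpr hno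
    rw [hbot, Subgroup.card_bot] at hZ2
    omega
  have hZelts : ∀ k ∈ Z, k = 1 ∨ k = z := by
    intro k hk
    by_contra hne
    push_neg at hne
    obtain ⟨y, hy, hyu⟩ := (Nat.card_eq_two_iff' (1 : Z)).mp hZ2
    have h1 := hyu ⟨k, hk⟩ (fun h => hne.1 (congrArg Subtype.val h))
    have h2 := hyu ⟨z, hzZ⟩ (fun h => hz1 (congrArg Subtype.val h))
    exact hne.2 (congrArg Subtype.val (h1.trans h2.symm))
  have hzz : z * z = 1 := by
    rcases hZelts (z * z) (Z.mul_mem hzZ hzZ) with h | h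
    · exact h
    · exfalso
      exact hz1 (mul_left_cancel (h.trans (mul_one z).symm))
  have hzc : ∀ g : H, g * z = z * g := fun g =>
    Subgroup.mem_center_iff.mp (hZdef ▸ hzZ) g
  have h2 : ∀ ζ ∈ σ.ker, ζ * ζ = 1 := by
    intro ζ hζ
    rcases hZelts ζ ((hker ζ).mp hζ) with h | h
    · rw [h, mul_one]
    · rw [h, hzz]
  have hzker : σ z = 1 := MonoidHom.mem_ker.mp ((hker z).mpr hzZ)
  have hmain : ∀ x : H, orderOf x = 2 → x = z := by
    intro x hx
    by_contra hxz
    have hxx : x * x = 1 := by rw [← pow_two, ← hx, pow_orderOf_eq_one]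
    have hx1 : x ≠ 1 := by
      rintro rfl
      rw [orderOf_one] at hx
      omega
    have hxZ : x ∉ Z := fun h => (hZelts x h).elim hx1 hxz
    obtain ⟨v, hv⟩ : ∃ v, v = σ x := ⟨_, rfl⟩
    have hv1 : v ≠ 1 := by
      intro h
      exact hxZ ((hker x).mp (MonoidHom.mem_ker.mpr (hv ▸ h)))
    have hvv : v * v = 1 := by rw [hv, ← map_mul, hxx, map_one]
    have hvo : orderOf v = 2 := orderOf_eq_prime (by rw [pow_two]; exact hvv) hv1
    have hqv : QOne σ v := fun g hg => by
      rw [sq_eq_of_map_eq hc h2 (hg.trans hv)]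
      exact hxx
    -- all involutions of `A_n`
    have hq : ∀ w : alternatingGroup (Fin n), orderOf w = 2 → QOne σ w := by
      intro w hw
      obtain ⟨c, hcw⟩ := alt_involutions_conj n hn v w hvo hw
      rw [← hcw]
      exact qOne_conj hc h2 hvv hqv (MonoidHom.mem_range.mpr ⟨x, hv.symm⟩)
        (MonoidHom.mem_range.mpr (hσsurj c))
    -- `n ≥ 4`
    have h4 : 4 ≤ n := by
      have hct := cycleType_of_even_involution n hn (v : Equiv.Perm (Fin n))
        (by rw [Subgroup.orderOf_coe]; exact hvo) (Equiv.Perm.mem_alternatingGroup.mp v.2)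
      have h1 : (v : Equiv.Perm (Fin n)).support.card = 4 := by
        rw [← Equiv.Perm.sum_cycleType, hct]
        rfl
      have h3 : (v : Equiv.Perm (Fin n)).support.card ≤ Fintype.card (Fin n) :=
        Finset.card_le_univ _
      rw [Fintype.card_fin] at h3
      omega
    obtain ⟨s, t, m, hs, ht, hm, hcard, hodd⟩ := alt_dihedral_odd_index n h4 hn
    obtain ⟨a, ha⟩ := hσsurj s
    obtain ⟨b, hb⟩ := hσsurj t
    have haa : a * a = 1 := hq s hs a ha
    have hbb : b * b = 1 := hq t ht b hb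
    have hmpos : 0 < m := by
      rcases hm with ⟨rfl, -⟩ | ⟨rfl, -⟩ <;> norm_num
    have habm : (a * b) ^ m = 1 := by
      rcases hm with ⟨rfl, hst⟩ | ⟨rfl, hst⟩
      · rw [pow_two]
        exact hq (s * t) hst (a * b) (by rw [map_mul, ha, hb])
      · have := hq (s * t * (s * t)) hst (a * b * (a * b)) (by rw [map_mul, map_mul, ha, hb])
        rw [show (4 : ℕ) = 2 + 2 from rfl, pow_add, pow_two]
        exact this
    obtain ⟨hfin, hle⟩ := card_closure_pair_le a b m hmpos haa hbb habm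
    obtain ⟨D, hD⟩ : ∃ D : Subgroup H, D = Subgroup.closure {a, b} := ⟨_, rfl⟩
    obtain ⟨P, hP⟩ : ∃ P : Subgroup (alternatingGroup (Fin n)), P = Subgroup.closure {s, t} :=
      ⟨_, rfl⟩
    rw [← hD] at hfin hle
    rw [← hP] at hcard hodd
    have hmap : D.map σ = P := by
      rw [hD, hP, MonoidHom.map_closure, Set.image_pair, ha, hb]
    haveI : Finite D := hfin
    have hDk : ∀ g ∈ D, g ∈ σ.ker → g = 1 :=
      lift_inj_of_card_le D P hmap (by rw [hcard]; exact hle)
    have hzD : z ∉ D := fun h => hz1 (hDk z h ((hker z).mpr hzZ))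
    -- the preimage of `P`
    obtain ⟨Ph, hPh⟩ : ∃ Ph : Subgroup H, Ph = P.comap σ := ⟨_, rfl⟩
    have hmemPh : ∀ g : H, g ∈ Ph ↔ σ g ∈ P := fun g => by rw [hPh, Subgroup.mem_comap]
    have hzPh : z ∈ Ph := by
      rw [hmemPh, hzker]
      exact P.one_mem
    have hsplit : ∀ p ∈ Ph, p ∈ D ∨ p * z ∈ D := by
      intro p hp
      have hp' : σ p ∈ D.map σ := by
        rw [hmap]
        exact (hmemPh p).mp hp
      obtain ⟨d, hd, hdp⟩ := hp'
      have hk : d⁻¹ * p ∈ Z := by
        rw [← hker, MonoidHom.mem_ker, map_mul, map_inv, hdp, inv_mul_cancel]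
      rcases hZelts _ hk with h | h
      · left
        have h' : p = d := by
          rw [inv_mul_eq_one] at h
          exact h.symm
        rw [h']
        exact hd
      · right
        have h' : p * z = d := by
          have h'' : p = d * z := by rw [← h]; group
          rw [h'', mul_assoc, hzz, mul_one]
        rw [h']
        exact hd
    haveI hDn : (D.subgroupOf Ph).Normal := by
      constructor
      intro d hd p
      rw [Subgroup.mem_subgroupOf] at hd ⊢
      have hcoe : ((p * d * p⁻¹ : Ph) : H) = (p : H) * (d : H) * (p : H)⁻¹ := rfl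
      rw [hcoe]
      rcases hsplit p p.2 with h | h
      · exact D.mul_mem (D.mul_mem h hd) (D.inv_mem h)
      · have h' : (p : H) * (d : H) * (p : H)⁻¹ = ((p : H) * z) * (d : H) * ((p : H) * z)⁻¹ := by
          have h1 := hzc (d : H)
          calc (p : H) * (d : H) * (p : H)⁻¹ = (p : H) * ((d : H) * z) * z⁻¹ * (p : H)⁻¹ := by
                group
            _ = (p : H) * (z * (d : H)) * z⁻¹ * (p : H)⁻¹ := by rw [h1]
            _ = ((p : H) * z) * (d : H) * ((p : H) * z)⁻¹ := by group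
        rw [h']
        exact D.mul_mem (D.mul_mem h hd) (D.inv_mem h)
    let ψ : Ph →* Ph ⧸ D.subgroupOf Ph := QuotientGroup.mk' (D.subgroupOf Ph)
    obtain ⟨ω, hω⟩ : ∃ ω : Ph ⧸ D.subgroupOf Ph, ω = ψ ⟨z, hzPh⟩ := ⟨_, rfl⟩
    have hω1 : ω ≠ 1 := by
      intro h
      rw [hω] at h
      have h' : (⟨z, hzPh⟩ : Ph) ∈ D.subgroupOf Ph := (QuotientGroup.eq_one_iff _).mp h
      rw [Subgroup.mem_subgroupOf] at h'
      exact hzD h'
    have hωω : ω * ω = 1 := by
      rw [hω, ← map_mul]
      have h' : (⟨z, hzPh⟩ : Ph) * ⟨z, hzPh⟩ = 1 := Subtype.ext hzz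
      rw [h', map_one]
    have hA : ∀ q : Ph ⧸ D.subgroupOf Ph, q = 1 ∨ q = ω := by
      intro q
      obtain ⟨p, rfl⟩ := QuotientGroup.mk_surjective q
      rcases hsplit p p.2 with h | h
      · left
        exact (QuotientGroup.eq_one_iff p).mpr (Subgroup.mem_subgroupOf.mpr h)
      · right
        have h' : ψ (p * ⟨z, hzPh⟩) = 1 :=
          (QuotientGroup.eq_one_iff _).mpr (Subgroup.mem_subgroupOf.mpr h)
        rw [map_mul, ← hω] at h'
        have h'' : ψ p = ω⁻¹ := eq_inv_of_mul_eq_one_left h'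
        have h3 : ω⁻¹ = ω := (eq_inv_of_mul_eq_one_left hωω).symm
        rw [h3] at h''
        exact h''
    letI instA : CommGroup (Ph ⧸ D.subgroupOf Ph) :=
      { (inferInstance : Group (Ph ⧸ D.subgroupOf Ph)) with
        mul_comm := by
          intro q₁ q₂
          rcases hA q₁ with rfl | rfl <;> rcases hA q₂ with rfl | rfl <;> simp }
    let tr : H →* Ph ⧸ D.subgroupOf Ph := MonoidHom.transfer ψ
    have hkey : ∀ (k : ℕ) (g₀ : H), g₀⁻¹ * z ^ k * g₀ ∈ Ph → g₀⁻¹ * z ^ k * g₀ = z ^ k := by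
      intro k g₀ _
      have h1 : g₀ * z ^ k = z ^ k * g₀ :=
        Subgroup.mem_center_iff.mp ((Subgroup.center H).pow_mem (hZdef ▸ hzZ) k) g₀
      rw [mul_assoc, ← h1, inv_mul_cancel_left]
    have hzpow : z ^ Ph.index = z := by
      have hidx : Ph.index = P.index := by
        rw [hPh]
        exact Subgroup.index_comap_of_surjective P hσsurj
      rw [hidx]
      obtain ⟨k, hk⟩ : ∃ k, P.index = 2 * k + 1 := by
        rcases Nat.even_or_odd' P.index with ⟨k, hk | hk⟩
        · exact absurd ⟨k, hk⟩ hodd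
        · exact ⟨k, hk⟩
      rw [hk, pow_succ, pow_mul, pow_two, hzz, one_pow, one_mul]
    have htz : tr z = ω := by
      show MonoidHom.transfer ψ z = ω
      rw [MonoidHom.transfer_eq_pow ψ z hkey, hω]
      congr 1
      exact Subtype.ext hzpow
    apply hns tr.ker
    apply Subgroup.isComplement'_of_disjoint_and_mul_eq_univ
    · rw [Subgroup.disjoint_def]
      intro g hgZ hgL
      rcases hZelts g hgZ with h | h
      · exact h
      · exfalso
        rw [h, MonoidHom.mem_ker, htz] at hgL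
        exact hω1 hgL
    · rw [Set.eq_univ_iff_forall]
      intro g
      rcases hA (tr g) with h | h
      · exact Set.mem_mul.mpr ⟨1, Z.one_mem, g, MonoidHom.mem_ker.mpr h, one_mul g⟩
      · refine Set.mem_mul.mpr ⟨z, hzZ, z⁻¹ * g, ?_, mul_inv_cancel_left z g⟩
        show z⁻¹ * g ∈ tr.ker
        rw [MonoidHom.mem_ker, map_mul, map_inv, htz, h, inv_mul_cancel]
  intro x y hx hy
  rw [hmain x hx, hmain y hy]

end Cfsg.Agent.Lib.Helper85
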