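import Mathlib

set_option autoImplicit false

namespace Cfsg.Agent.Lib.Helper85

open Representation in
/-- Character of the representation on the `N`-invariants (deflation): the average of the
character over the coset. -/
theorem toInvariants_character {G : Type*} [Group G] {E : Type*} [AddCommGroup E] [Module ℂ E]
    [FiniteDimensional ℂ E] (τ : Representation ℂ G E) (N : Subgroup G) [N.Normal] [Fintype N]
    (x : G) :
    (Representation.toInvariants τ N).character x =
      (Nat.card N : ℂ)⁻¹ * ∑ n : N, τ.character ((n : G) * x) := by
  classical
  haveI : Invertible (Fintype.card N : ℂ) :=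
    invertibleOfNonzero (by exact_mod_cast Fintype.card_ne_zero)
  set τN := τ.comp N.subtype with hτN
  set π := Representation.averageMap τN with hπ
  set f : E →ₗ[ℂ] E := π ∘ₗ τ x with hf0
  have hf : ∀ v, f v ∈ Representation.invariants τN :=
    fun v => Representation.averageMap_invariant τN _
  have h1 := LinearMap.trace_restrict_eq_of_forall_mem (Representation.invariants τN) f hf
  have h2 : f.restrict (fun v _ => hf v) = (Representation.toInvariants τ N) x := by
    ext ⟨v, hv⟩
    show π (τ x v) = τ x v
    exact Representation.averageMap_id τN _ (Representation.le_comap_invariants τ N x hv)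
  unfold Representation.character
  rw [← h2, h1]
  have h3 : π = (Nat.card N : ℂ)⁻¹ • ∑ n : N, τ (n : G) := by
    rw [hπ, Representation.averageMap, GroupAlgebra.average, map_smul, map_sum]
    simp only [Representation.asAlgebraHom_of]
    rw [invOf_eq_inv, Nat.card_eq_fintype_card]
    rfl
  rw [hf0, h3, LinearMap.smul_comp, map_smul, smul_eq_mul]
  change (Nat.card N : ℂ)⁻¹ * LinearMap.trace ℂ E ((∑ n : N, τ (n : G)) * τ x) = _
  rw [Finset.sum_mul, map_sum]
  congr 1
  refine Finset.sum_congr rfl fun n _ => ?_
  exact congrArg _ (map_mul τ _ _).symm

end Cfsg.Agent.Lib.Helper85
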