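import Mathlib

/-! Project EP (helper7, S5746), piece TWOPT: `H ∩ xHx⁻¹` is the stabiliser in `H = Stab(a)` of
the point `x a`. -/

set_option autoImplicit false

namespace Cfsg.Agent.Lib.Helper7.EP

/-- TWOPT: `H ∩ xHx⁻¹` is the stabiliser in `H = Stab(a)` of the point `x a`. -/
theorem EPTWOPT {W : Type*} [Group W] {n : ℕ} (π : W →* Equiv.Perm (Fin n)) (a : Fin n) (x : W) :
    ((MulAction.stabilizer (Equiv.Perm (Fin n)) a).comap π ⊓
        ((MulAction.stabilizer (Equiv.Perm (Fin n)) a).comap π).map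
          (MulAut.conj x).toMonoidHom).subgroupOf
      ((MulAction.stabilizer (Equiv.Perm (Fin n)) a).comap π) =
    (MulAction.stabilizer (Equiv.Perm (Fin n)) (π x a)).comap
      (π.comp ((MulAction.stabilizer (Equiv.Perm (Fin n)) a).comap π).subtype) := by
  ext ⟨h, hh⟩
  constructor
  · intro hmem
    have h1 : h ∈ ((MulAction.stabilizer (Equiv.Perm (Fin n)) a).comap π).map
        (MulAut.conj x).toMonoidHom := (Subgroup.mem_subgroupOf.mp hmem).2
    obtain ⟨y, hy, hxy⟩ := h1
    have hy' : π y a = a := hy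
    have hxy' : x * y * x⁻¹ = h := hxy
    show π h (π x a) = π x a
    rw [← hxy', map_mul, map_mul, map_inv]
    simp [hy']
  · intro hmem
    have hfix : π h (π x a) = π x a := hmem
    apply Subgroup.mem_subgroupOf.mpr
    refine ⟨hh, x⁻¹ * h * x, ?_, ?_⟩
    · show π (x⁻¹ * h * x) a = a
      rw [map_mul, map_mul, map_inv]
      simp [hfix]
    · show x * (x⁻¹ * h * x) * x⁻¹ = h
      group

end Cfsg.Agent.Lib.Helper7.EP
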