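import Mathlib
import Cfsg.Agent.S0904
import Cfsg.Agent.Lib.Helper23.Syl
import Cfsg.Agent.Lib.Helper23.Syl2
import Cfsg.Agent.Lib.Helper23.Count
import Cfsg.Agent.Lib.Helper76.SylPrime

/-!
# S0496 (helper11), piece N720NUM

In a simple group of order `720` the number of Sylow `3`-subgroups is `10` or `40`.
-/

set_option autoImplicit false

namespace Cfsg.Agent.S496

open Subgroup

theorem n3_720 {G : Type*} [Group G] [Finite G] [IsSimpleGroup G] (h : Nat.card G = 720) :
    Nat.card (Sylow 3 G) = 10 ∨ Nat.card (Sylow 3 G) = 40 := by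
  have : Fact (Nat.Prime 3) := ⟨by norm_num⟩
  have : Fact (Nat.Prime 5) := ⟨by norm_num⟩
  have hG : ¬ IsMulCommutative G :=
    Cfsg.Agent.Lib.Helper23.not_comm_of_simple_of_not_prime (by rw [h]; norm_num)
  have h3 : Nat.card G = 3 ^ 2 * 80 := by rw [h]; norm_num
  have hmem := Cfsg.Agent.Lib.Helper23.card_sylow_mem_filter (p := 3) h3 (by norm_num)
  have hne1 := Cfsg.Agent.Lib.Helper23.simple_sylow_card_ne_one (p := 3) h3 (by norm_num)
    (by norm_num) (by norm_num)
  rw [Finset.mem_filter, Nat.mem_divisors] at hmem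
  obtain ⟨⟨hdvd, -⟩, hmod⟩ := hmem
  obtain ⟨P⟩ : Nonempty (Sylow 3 G) := inferInstance
  have hNmul := Cfsg.Agent.Lib.Helper23.card_normalizer_sylow_mul P
  have hle : Nat.card (Sylow 3 G) ≤ 80 := Nat.le_of_dvd (by norm_num) hdvd
  have hcases : Nat.card (Sylow 3 G) = 4 ∨ Nat.card (Sylow 3 G) = 10 ∨
      Nat.card (Sylow 3 G) = 16 ∨ Nat.card (Sylow 3 G) = 40 := by
    generalize Nat.card (Sylow 3 G) = d at hdvd hmod hne1 hle ⊢
    interval_cases d <;> omega
  rcases hcases with h4 | h10 | h16 | h40
  · exfalso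
    have hidx : (normalizer ((P : Subgroup G) : Set G)).index = 4 := by
      have h9 := Sylow.card_eq_index_normalizer P
      rw [h4] at h9
      exact h9.symm
    have hne : normalizer ((P : Subgroup G) : Set G) ≠ ⊤ := by
      intro htop
      rw [htop, Subgroup.index_top] at hidx
      omega
    have h5 := Cfsg.Agent.Lib.Helper23.simple_two_mul_card_dvd_factorial hG _ hne
    rw [hidx, h] at h5
    have h6 := Nat.le_of_dvd (by decide) h5
    have h7 : Nat.factorial 4 = 24 := by decide
    omega
  · exact Or.inl h10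
  · exfalso
    rw [h16, h] at hNmul
    have hN45 : Nat.card (normalizer ((P : Subgroup G) : Set G)) = 45 := by omega
    have hidx : (normalizer ((P : Subgroup G) : Set G)).index = 16 := by
      have h9 := Sylow.card_eq_index_normalizer P
      rw [h16] at h9
      exact h9.symm
    have hN5 : Nat.card (normalizer ((P : Subgroup G) : Set G)) = 5 ^ 1 * 9 := by
      rw [hN45]; norm_num
    have hmem5 := Cfsg.Agent.Lib.Helper23.card_sylow_mem_filter
      (G := normalizer ((P : Subgroup G) : Set G)) (p := 5) hN5 (by norm_num)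
    have hcard5 : Nat.card (Sylow 5 (normalizer ((P : Subgroup G) : Set G))) = 1 := by
      rw [Finset.mem_filter, Nat.mem_divisors] at hmem5
      obtain ⟨⟨hd, -⟩, hm⟩ := hmem5
      have hl := Nat.le_of_dvd (by norm_num) hd
      generalize Nat.card (Sylow 5 (normalizer ((P : Subgroup G) : Set G))) = d at hd hm hl ⊢
      interval_cases d <;> omega
    obtain ⟨Q, hQH, hHQ⟩ := Cfsg.Agent.Lib.Helper23.le_normalizer_of_card_sylow_subgroup_eq_one
      (p := 5) (normalizer ((P : Subgroup G) : Set G)) (by rw [hidx]; norm_num) hcard5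
    have hcent : centralizer ((Q : Subgroup G) : Set G) = (Q : Subgroup G) :=
      Cfsg.Agent.S0904.result 2 3 5 4 2 (by norm_num) (by norm_num) (by norm_num) (by norm_num)
        (by norm_num) (by rw [h]; norm_num) Q
    have hc5 : ∀ Q' : Sylow 5 G, Nat.card (Q' : Subgroup G) = 5 := by
      intro Q'
      have h8 := Cfsg.Agent.Lib.Helper23.sylow_card_of_eq (p := 5) (k := 1) (m := 144)
        (by rw [h]; norm_num) (by norm_num) Q'
      rw [h8, pow_one]
    obtain ⟨r, c, hr4, hr1, hC, hNQ, hprod⟩ :=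
      Cfsg.Agent.Lib.Helper76.SylPrime.card_centralizer_mul hG hc5 Q
    rw [hcent, hc5 Q] at hC
    have hc1 : c = 1 := by omega
    have hdvd45 : Nat.card (normalizer ((P : Subgroup G) : Set G)) ∣
        Nat.card (normalizer ((Q : Subgroup G) : Set G)) := Subgroup.card_dvd_of_le hHQ
    rw [hN45, hNQ, hc1] at hdvd45
    have hr4' : r ∣ 4 := hr4
    have hrle : r ≤ 4 := Nat.le_of_dvd (by norm_num) hr4'
    have hr0 : 0 < r := Nat.pos_of_dvd_of_pos hr4' (by norm_num)
    interval_cases r <;> omega
  · exact Or.inr h40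

end Cfsg.Agent.S496
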