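import Cfsg.Agent.Lib.Helper88.SSolDefs
import Cfsg.Agent.Lib.Helper12.NormAbCyc2

/-!
# S5287 project, piece J9 (helper85 for helper88)

The dihedral `2`-group of order `≥ 8` as a Sylow `2`-subgroup of `GL₂(q) / {±1}`.
-/

set_option autoImplicit false

namespace Cfsg.Agent.Lib.Helper85.SSolJ9

open Cfsg.Agent.Lib.Helper88.SSol

/-- membership in `⟨-1⟩` -/
theorem mem_negOne {q : ℕ} (g : GL2 q) :
    g ∈ Subgroup.zpowers (-1 : GL2 q) ↔ g = 1 ∨ g = -1 := by
  constructor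
  · intro hg
    obtain ⟨k, rfl⟩ := Subgroup.mem_zpowers_iff.mp hg
    rcases Int.even_or_odd k with hk | hk
    · left
      exact hk.neg_one_zpow
    · right
      exact hk.neg_one_zpow
  · rintro (rfl | rfl)
    · exact Subgroup.one_mem _
    · exact Subgroup.mem_zpowers _

theorem negOne_normal (q : ℕ) : (Subgroup.zpowers (-1 : GL2 q)).Normal := by
  constructor
  intro n hn g
  rw [mem_negOne] at hn ⊢
  rcases hn with rfl | rfl
  · left
    simp
  · right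
    simp

theorem d_model {S : Type*} [Group S] [Finite S] (hS : IsPGroup 2 S) {m : ℕ} (hm : 3 ≤ m)
    (e : S ≃* DihedralGroup m)
    (hdata : ∀ n : ℕ, 3 ≤ n → ∃ (q : ℕ) (t : ZMod q),
      PrimeT n q t ∧ SDData n q t ∧ C1Stmt q ∧ C2Stmt q) : CycModel 2 S := by
  have hcardS : Nat.card S = 2 * m := by
    rw [Nat.card_congr e.toEquiv, DihedralGroup.nat_card]
  obtain ⟨k, hk⟩ := IsPGroup.iff_card.mp hS
  have hk3 : 3 ≤ k := by
    by_contra hlt
    have h1 : 2 ^ k ≤ 2 ^ 2 := Nat.pow_le_pow_right (by norm_num) (by omega)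
    omega
  obtain ⟨j, rfl⟩ : ∃ j, k = j + 2 := ⟨k - 2, by omega⟩
  have hj : 1 ≤ j := by omega
  have hm2 : m = 2 ^ (j + 1) := by
    have h1 : 2 * m = 2 * 2 ^ (j + 1) := by
      rw [← hcardS, hk, pow_succ']
    omega
  obtain ⟨q, t, hP, d, C1, C2⟩ := hdata (j + 2) (by omega)
  have hq : q.Prime := hP.1
  have : Fact q.Prime := ⟨hq⟩
  have : NeZero q := ⟨hq.ne_zero⟩
  obtain ⟨X, hXdef⟩ : ∃ X : GL2 q, X = xU q t := ⟨_, rfl⟩
  obtain ⟨Y, hYdef⟩ : ∃ Y : GL2 q, Y = yU q t := ⟨_, rfl⟩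
  have e1 : j + 2 - 1 = j + 1 := by omega
  have hXpow : X ^ 2 ^ (j + 1) = -1 := by
    have h3 := hP.2.2
    rw [e1] at h3
    apply Units.ext
    rw [Units.val_pow_eq_pow_val, hXdef, coe_xU, h3]
    simp
  have hXord : orderOf X = 2 ^ (j + 2) := by rw [hXdef]; exact d.orderOf_x
  have hYnot : Y ∉ Subgroup.zpowers X := by rw [hXdef, hYdef]; exact d.y_notMem
  have hYY : Y * Y = 1 := by rw [hYdef]; exact yU_mul_self q t
  have hYinv : Y⁻¹ = Y := by rw [hYdef]; exact yU_inv q t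
  have hconjXY : Y * X * Y = -X⁻¹ := by
    have h := yU_conj_xU q t
    rw [yU_inv] at h
    rw [hXdef, hYdef]
    exact h
  have hYXsq : (Y * X) * (Y * X) = -1 := by rw [hXdef, hYdef]; exact yx_mul_self q t
  have hneg1 : (-1 : GL2 q) ≠ 1 := by
    intro h
    rw [h] at hXpow
    have h1 := orderOf_dvd_of_pow_eq_one hXpow
    rw [hXord] at h1
    have h2 := Nat.le_of_dvd (by positivity) h1
    have h3 : 2 ^ (j + 2) = 2 * 2 ^ (j + 1) := pow_succ' 2 (j + 1)
    have h4 : 0 < 2 ^ (j + 1) := by positivity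
    omega
  -- the quotient
  have hZn : (Subgroup.zpowers (-1 : GL2 q)).Normal := negOne_normal q
  obtain ⟨π, hπdef⟩ : ∃ π : GL2 q →* GL2 q ⧸ Subgroup.zpowers (-1 : GL2 q),
      π = QuotientGroup.mk' (Subgroup.zpowers (-1 : GL2 q)) := ⟨_, rfl⟩
  have hπ1 : ∀ g : GL2 q, π g = 1 ↔ g = 1 ∨ g = -1 := fun g => by
    rw [hπdef]
    exact (QuotientGroup.eq_one_iff g).trans (mem_negOne g)
  have hπsurj : Function.Surjective π := by
    rw [hπdef]
    exact QuotientGroup.mk'_surjective _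
  have hπker : π.ker = Subgroup.zpowers (-1 : GL2 q) := by
    rw [hπdef]
    exact QuotientGroup.ker_mk' _
  have hπneg : π (-1) = 1 := (hπ1 _).mpr (Or.inr rfl)
  -- the subgroup `T = ⟨X, Y⟩`
  obtain ⟨T, hTdef⟩ : ∃ T : Subgroup (GL2 q), T = Subgroup.closure {X, Y} := ⟨_, rfl⟩
  have hXT : X ∈ T := by
    rw [hTdef]
    exact Subgroup.subset_closure (Set.mem_insert _ _)
  have hYT : Y ∈ T := by
    rw [hTdef]
    exact Subgroup.subset_closure (Set.mem_insert_of_mem _ rfl)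
  have hcardT : Nat.card T = 2 ^ (j + 3) := by
    rw [hTdef, hXdef, hYdef]
    exact d.card_closure
  have hZT : Subgroup.zpowers (-1 : GL2 q) ≤ T := by
    rw [Subgroup.zpowers_le, ← hXpow]
    exact Subgroup.pow_mem _ hXT _
  obtain ⟨k', hk', hodd⟩ := d.card_GL
  have hk'0 : 0 < k' := by
    rcases Nat.eq_zero_or_pos k' with h | h
    · exact absurd (h ▸ dvd_zero 2) hodd
    · exact h
  have hTidx : T.index = k' := by
    have h1 := T.card_mul_index
    rw [hcardT, hk'] at h1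
    exact Nat.eq_of_mul_eq_mul_left (by positivity) h1
  have hTbidx : (T.map π).index = k' := by
    rw [Subgroup.index_map_eq T hπsurj (by rw [hπker]; exact hZT), hTidx]
  have hTp : IsPGroup 2 T := IsPGroup.of_card hcardT
  have hTbp : IsPGroup 2 (T.map π) := hTp.map π
  have hcardZ : Nat.card (Subgroup.zpowers (-1 : GL2 q)) = 2 := by
    rw [Nat.card_zpowers]
    exact orderOf_eq_prime (by rw [neg_one_sq]) hneg1
  have hcardG : Nat.card (GL2 q ⧸ Subgroup.zpowers (-1 : GL2 q)) = 2 ^ (j + 2) * k' := by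
    have h1 := (Subgroup.zpowers (-1 : GL2 q)).card_mul_index
    rw [hcardZ, hk'] at h1
    have h2 : (Subgroup.zpowers (-1 : GL2 q)).index =
        Nat.card (GL2 q ⧸ Subgroup.zpowers (-1 : GL2 q)) := rfl
    rw [h2] at h1
    have h3 : 2 ^ (j + 3) = 2 * 2 ^ (j + 2) := pow_succ' 2 (j + 2)
    rw [h3, mul_assoc] at h1
    exact Nat.eq_of_mul_eq_mul_left (by norm_num) h1
  have hcardTb : Nat.card (T.map π) = 2 * m := by
    have h1 := (T.map π).card_mul_index
    rw [hTbidx, hcardG] at h1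
    have h2 := Nat.eq_of_mul_eq_mul_right hk'0 h1
    rw [h2, hm2, pow_succ']
  -- the dihedral structure of the image of `T`
  have hπXord : orderOf (π X) = 2 ^ (j + 1) := by
    apply orderOf_eq_prime_pow
    · intro h
      rw [← map_pow] at h
      have h2 : X ^ 2 ^ (j + 1) = 1 := by
        rw [pow_succ, pow_mul]
        rcases (hπ1 _).mp h with h1 | h1
        · rw [h1, one_pow]
        · rw [h1, neg_one_sq]
      rw [hXpow] at h2
      exact hneg1 h2
    · rw [← map_pow, hXpow]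
      exact hπneg
  have hcoset : ∀ z ∈ Subgroup.zpowers X, π (z * Y) ≠ 1 := by
    intro z hz h
    apply hYnot
    rcases (hπ1 _).mp h with h1 | h1
    · have h2 : Y = z⁻¹ := eq_inv_of_mul_eq_one_right h1
      rw [h2]
      exact Subgroup.inv_mem _ hz
    · have h2 : Y = z⁻¹ * X ^ 2 ^ (j + 1) := by
        rw [hXpow, ← h1]
        group
      rw [h2]
      exact Subgroup.mul_mem _ (Subgroup.inv_mem _ hz)
        (Subgroup.pow_mem _ (Subgroup.mem_zpowers X) _)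
  have hsq : ∀ w : GL2 q, w * w = -1 → π w ≠ 1 := by
    intro w hw h
    rcases (hπ1 w).mp h with h1 | h1
    · rw [h1, one_mul] at hw
      exact hneg1 hw.symm
    · rw [h1, neg_mul_neg, one_mul] at hw
      exact hneg1 hw.symm
  have hbnot : (⟨π Y, Subgroup.mem_map_of_mem π hYT⟩ : T.map π) ∉
      Subgroup.zpowers (⟨π X, Subgroup.mem_map_of_mem π hXT⟩ : T.map π) := by
    intro hmem
    obtain ⟨i, hi⟩ := Subgroup.mem_zpowers_iff.mp hmem
    have h1 : (π X) ^ i = π Y := by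
      have h0 := congrArg Subtype.val hi
      rwa [Subgroup.coe_zpow] at h0
    rw [← map_zpow] at h1
    have h2 : π ((X ^ i)⁻¹ * Y) = 1 := by
      rw [map_mul, map_inv, h1, inv_mul_cancel]
    exact hcoset _ (Subgroup.inv_mem _ (Subgroup.zpow_mem _ (Subgroup.mem_zpowers X) i)) h2
  have hb2 : (⟨π Y, Subgroup.mem_map_of_mem π hYT⟩ : T.map π) ^ 2 = 1 := by
    apply Subtype.ext
    rw [Subgroup.coe_pow, Subgroup.coe_one, ← map_pow, sq, hYY, map_one]
  have hbab : (⟨π Y, Subgroup.mem_map_of_mem π hYT⟩ : T.map π) *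
      ⟨π X, Subgroup.mem_map_of_mem π hXT⟩ *
      (⟨π Y, Subgroup.mem_map_of_mem π hYT⟩ : T.map π)⁻¹ =
      (⟨π X, Subgroup.mem_map_of_mem π hXT⟩ : T.map π)⁻¹ := by
    apply Subtype.ext
    rw [Subgroup.coe_mul, Subgroup.coe_mul, Subgroup.coe_inv, Subgroup.coe_inv]
    show π Y * π X * (π Y)⁻¹ = (π X)⁻¹
    have hnegX : -X⁻¹ = -1 * X⁻¹ := (neg_one_mul _).symm
    rw [← map_inv, ← map_inv, ← map_mul, ← map_mul, hYinv, hconjXY, hnegX, map_mul,
      hπneg, one_mul]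
  have hord_a : orderOf (⟨π X, Subgroup.mem_map_of_mem π hXT⟩ : T.map π) = m := by
    rw [Subgroup.orderOf_mk, hπXord, hm2]
  obtain ⟨iso⟩ := Cfsg.Agent.Lib.Helper12.nonempty_mulEquiv_dihedral (m := m) (by omega)
    (⟨π X, Subgroup.mem_map_of_mem π hXT⟩ : T.map π) ⟨π Y, Subgroup.mem_map_of_mem π hYT⟩
    hcardTb hord_a hbnot hb2 hbab
  obtain ⟨φ, hφdef⟩ : ∃ φ : S ≃* T.map π, φ = e.trans iso.symm := ⟨_, rfl⟩
  obtain ⟨ι, hιdef⟩ : ∃ ι : S →* GL2 q ⧸ Subgroup.zpowers (-1 : GL2 q),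
      ι = (T.map π).subtype.comp φ.toMonoidHom := ⟨_, rfl⟩
  have hιapp : ∀ s : S, ι s = ((φ s : T.map π) : GL2 q ⧸ Subgroup.zpowers (-1 : GL2 q)) := by
    intro s
    rw [hιdef]
    rfl
  have hιinj : Function.Injective ι := by
    intro a b hab
    rw [hιapp, hιapp] at hab
    exact φ.injective (Subtype.ext hab)
  have hrange : ι.range = T.map π := by
    ext g
    constructor
    · rintro ⟨s, rfl⟩
      rw [hιapp]
      exact (φ s).2
    · intro hg
      refine ⟨φ.symm ⟨g, hg⟩, ?_⟩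
      rw [hιapp, φ.apply_symm_apply]
  refine ⟨GL2 q ⧸ Subgroup.zpowers (-1 : GL2 q), inferInstance, inferInstance, ι, hιinj,
    ⟨IsPGroup.toSylow hTbp (by rw [hTbidx]; exact hodd), ?_⟩, ?_⟩
  · rw [hrange]
    rfl
  intro x hx2
  have hx1 : x ≠ 1 := by
    intro h
    rw [h, orderOf_one] at hx2
    omega
  have hxx : x * x = 1 := by
    have h := pow_orderOf_eq_one x
    rwa [hx2, sq] at h
  obtain ⟨u, huT, hu⟩ : ∃ u ∈ T, π u = ι x := by
    have h : ι x ∈ T.map π := by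
      rw [hιapp]
      exact (φ x).2
    exact Subgroup.mem_map.mp h
  have huZ : π u ≠ 1 := by
    intro h
    rw [hu] at h
    exact hx1 (hιinj (h.trans (map_one ι).symm))
  have huu : u * u = 1 ∨ u * u = -1 := by
    apply (hπ1 _).mp
    rw [map_mul, hu, ← map_mul, hxx, map_one]
  have key : ∀ w₁ w₂ : GL2 q, w₁ ∈ T → w₂ ∈ T → π w₁ ≠ π w₂ → π w₁ ≠ 1 → π w₂ ≠ 1 →
      (∃ h : GL2 q, h * u * h⁻¹ = w₁) → (∃ h : GL2 q, h * u * h⁻¹ = w₂) →
      ∃ y : S, y ∉ Subgroup.zpowers x ∧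
        ∃ g : GL2 q ⧸ Subgroup.zpowers (-1 : GL2 q), ι y = g * ι x * g⁻¹ := by
    rintro w₁ w₂ hw₁ hw₂ hne h1 h2 ⟨c₁, hc₁⟩ ⟨c₂, hc₂⟩
    have hsel : ∃ w : GL2 q, w ∈ T ∧ π w ≠ ι x ∧ π w ≠ 1 ∧ ∃ h : GL2 q, h * u * h⁻¹ = w := by
      by_cases hw : π w₁ = ι x
      · refine ⟨w₂, hw₂, ?_, h2, c₂, hc₂⟩
        intro h'
        exact hne (hw.trans h'.symm)
      · exact ⟨w₁, hw₁, hw, h1, c₁, hc₁⟩
    obtain ⟨w, hwT, hwx, hw1, c, hc⟩ := hsel
    obtain ⟨y, hydef⟩ : ∃ y : S, y = φ.symm ⟨π w, Subgroup.mem_map_of_mem π hwT⟩ := ⟨_, rfl⟩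
    have hy : ι y = π w := by
      rw [hιapp, hydef, φ.apply_symm_apply]
    refine ⟨y, ?_, π c, ?_⟩
    · intro hmem
      obtain ⟨i, hi⟩ := Subgroup.mem_zpowers_iff.mp hmem
      rcases Int.even_or_odd i with ⟨r, hr⟩ | ⟨r, hr⟩
      · rw [hr, ← two_mul, zpow_mul, zpow_two, hxx, one_zpow] at hi
        rw [← hi, map_one] at hy
        exact hw1 hy.symm
      · rw [hr, zpow_add, zpow_mul, zpow_two, hxx, one_zpow, one_mul, zpow_one] at hi
        rw [← hi] at hy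
        exact hwx hy.symm
    · rw [hy, ← hu, ← hc, map_mul, map_mul, map_inv]
  rcases huu with huu | huu
  · -- `u` is an involution
    have hu1 : u ≠ 1 := fun h => huZ ((hπ1 u).mpr (Or.inl h))
    have hu2 : u ≠ -1 := fun h => huZ ((hπ1 u).mpr (Or.inr h))
    have hw2sq : (X * X * Y) * (X * X * Y) = 1 := by
      calc (X * X * Y) * (X * X * Y) = X * X * (Y * X * (Y * Y) * X * Y) := by
            rw [hYY]
            group
        _ = X * X * ((Y * X * Y) * (Y * X * Y)) := by group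
        _ = X * X * ((-X⁻¹) * (-X⁻¹)) := by rw [hconjXY]
        _ = 1 := by
            rw [neg_mul_neg]
            group
    have hπY : π Y ≠ 1 := by
      have h := hcoset 1 (Subgroup.one_mem _)
      rwa [one_mul] at h
    have hπw2 : π (X * X * Y) ≠ 1 :=
      hcoset (X * X) (Subgroup.mul_mem _ (Subgroup.mem_zpowers X) (Subgroup.mem_zpowers X))
    have hne : π Y ≠ π (X * X * Y) := by
      intro h
      have h1 : π (X * X) = 1 := by
        have h2 : π (X * X * Y) = π (X * X) * π Y := map_mul π _ _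
        rw [h2] at h
        exact (mul_eq_right (a := π (X * X)) (b := π Y)).mp h.symm
      have h3 : X ^ 4 = 1 := by
        have h4 : X ^ 4 = (X * X) * (X * X) := by
          rw [show (4 : ℕ) = 2 + 2 from rfl, pow_add, sq]
        rw [h4]
        rcases (hπ1 _).mp h1 with h5 | h5
        · rw [h5, one_mul]
        · rw [h5, neg_mul_neg, one_mul]
      have h6 := orderOf_dvd_of_pow_eq_one h3
      rw [hXord] at h6
      have h7 := Nat.le_of_dvd (by norm_num) h6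
      have h8 : 2 ^ 3 ≤ 2 ^ (j + 2) := Nat.pow_le_pow_right (by norm_num) (by omega)
      omega
    have hY1 : Y ≠ 1 := fun h => hπY ((hπ1 Y).mpr (Or.inl h))
    have hY2 : Y ≠ -1 := fun h => hπY ((hπ1 Y).mpr (Or.inr h))
    have hW1 : X * X * Y ≠ 1 := fun h => hπw2 ((hπ1 _).mpr (Or.inl h))
    have hW2 : X * X * Y ≠ -1 := fun h => hπw2 ((hπ1 _).mpr (Or.inr h))
    exact key Y (X * X * Y) hYT (T.mul_mem (T.mul_mem hXT hXT) hYT) hne hπY hπw2
      (C1 u Y huu hu1 hu2 hYY hY1 hY2) (C1 u (X * X * Y) huu hu1 hu2 hw2sq hW1 hW2)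
  · -- `u * u = -1`
    have hw2sq : X ^ 2 ^ j * X ^ 2 ^ j = -1 := by
      rw [← pow_add, ← two_mul, ← pow_succ', hXpow]
    have hne : π (Y * X) ≠ π (X ^ 2 ^ j) := by
      intro h
      have h' : π Y = π (X ^ 2 ^ j * X⁻¹) := by
        rw [map_mul, map_inv, ← h, map_mul, mul_inv_cancel_right]
      have h2 : π ((X ^ 2 ^ j * X⁻¹)⁻¹ * Y) = 1 := by
        rw [map_mul, map_inv, h', inv_mul_cancel]
      exact hcoset _ (Subgroup.inv_mem _ (Subgroup.mul_mem _
        (Subgroup.pow_mem _ (Subgroup.mem_zpowers X) _)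
        (Subgroup.inv_mem _ (Subgroup.mem_zpowers X)))) h2
    obtain ⟨h₁, -, hc₁⟩ := C2 u (Y * X) huu hYXsq
    obtain ⟨h₂, -, hc₂⟩ := C2 u (X ^ 2 ^ j) huu hw2sq
    exact key (Y * X) (X ^ 2 ^ j) (T.mul_mem hYT hXT) (T.pow_mem hXT _) hne
      (hsq _ hYXsq) (hsq _ hw2sq) ⟨h₁, hc₁⟩ ⟨h₂, hc₂⟩

end Cfsg.Agent.Lib.Helper85.SSolJ9
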