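import Mathlib
import Cfsg.Agent.Lib.Helper93.Sp4Defs
import Cfsg.Agent.Lib.Helper23.PresSURJ

/-!
# S2293 piece SP4-L12: the `C2Root` package read off the relators
-/

set_option autoImplicit false

namespace Cfsg.Agent.Lib.Helper93.Sp4

open Polynomial Matrix

/-- L12 -/
theorem c2Root_of_rels {F : Type*} [Field F] [Fintype F] (ζ : F) (hζ0 : ζ ≠ 0)
    (hζ : ∀ a : F, a ≠ 0 → ∃ j : ℕ, a = ζ ^ j)
    {P : Type*} [Group P] (ua ha ta ub hb tb : P) (xa xb : F → P)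
    (hadda : ∀ a b, xa (a + b) = xa a * xa b) (hxa1 : xa 1 = ua)
    (ha_hb : ∀ a, hb * xa a * hb⁻¹ = xa (ζ * a))
    (ha_ha : ∀ a, ha⁻¹ * xa a * ha = xa (ζ ^ 2 * a))
    (hra : ∀ a : F, a ≠ 0 → ∃ z ∈ Subgroup.zpowers ha,
      xa a * ta⁻¹ * xa a⁻¹ * ta * xa a = z * ta)
    (hhaq : ha ^ (Fintype.card F - 1) = 1) (hta2 : ∀ j : ℕ, ζ ^ j = -1 → ta ^ 2 = ha ^ j)
    (haddb : ∀ a b, xb (a + b) = xb a * xb b) (hxb1 : xb 1 = ub)
    (hb_hb : ∀ b, hb⁻¹ * xb b * hb = xb (ζ ^ 2 * b))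
    (hrb : ∀ b : F, b ≠ 0 → ∃ z ∈ Subgroup.zpowers hb,
      xb b * tb⁻¹ * xb b⁻¹ * tb * xb b = z * tb)
    (hhbq : hb ^ (Fintype.card F - 1) = 1) (htb2 : ∀ j : ℕ, ζ ^ j = -1 → tb ^ 2 = hb ^ j)
    (hta_ha : ta * ha * ta⁻¹ = ha⁻¹) (htb_hb : tb * hb * tb⁻¹ = hb⁻¹)
    (hT : ∀ r ∈ relsT ha ta ub hb tb, r = 1) (hN : ∀ r ∈ relsN ua ta ub tb, r = 1)
    (hS : ∀ r ∈ relsS ua ta ub tb, r = 1) :
    C2Root ζ (Fintype.card F - 1) xa xb ha ta hb tb := by
  -- the relators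
  have hT1 := hT (ha * hb * ha⁻¹ * hb⁻¹) (by simp [relsT])
  have hT2 := hT (ta * hb * ta⁻¹ * (ha * hb)⁻¹) (by simp [relsT])
  have hT3 := hT (tb * ha * tb⁻¹ * (ha * hb * hb)⁻¹) (by simp [relsT])
  have hT4 := hT (ha * hb * ub * (ha * hb)⁻¹ * ub⁻¹) (by simp [relsT])
  have hN1 := hN (tb⁻¹ * ta * tb * ua * (tb⁻¹ * ta * tb)⁻¹ * ua) (by simp [relsN])
  have hN2 := hN (ta⁻¹ * tb * ta * ub * (ta⁻¹ * tb * ta)⁻¹ * ub⁻¹) (by simp [relsN])
  have hN3 := hN (tb * ta * tb * ta * (ta * tb * ta * tb)⁻¹) (by simp [relsN])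
  have hS1 := hS (ua * ub * ua⁻¹ * ub⁻¹ * (tb * ua⁻¹ * tb⁻¹ * (ta * ub * ta⁻¹))⁻¹)
    (by simp [relsS])
  have hS2 := hS (ua * (ta * ub * ta⁻¹) * ua⁻¹ * (ta * ub * ta⁻¹)⁻¹) (by simp [relsS])
  have hS3 := hS (ub * (ta * ub * ta⁻¹) * ub⁻¹ * (ta * ub * ta⁻¹)⁻¹) (by simp [relsS])
  -- basic consequences
  have hh : ha * hb = hb * ha := mul_inv_eq_iff_eq_mul.1 (mul_inv_eq_one.1 hT1)
  have hxa0 : xa 0 = 1 := by
    have h := hadda 0 0
    rw [add_zero] at h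
    exact mul_left_cancel (a := xa 0) (by rw [mul_one]; exact h.symm)
  have hxb0 : xb 0 = 1 := by
    have h := haddb 0 0
    rw [add_zero] at h
    exact mul_left_cancel (a := xb 0) (by rw [mul_one]; exact h.symm)
  have hxam1 : xa (-1) = ua⁻¹ := by
    apply eq_inv_of_mul_eq_one_left
    rw [← hxa1, ← hadda, neg_add_cancel, hxa0]
  obtain ⟨j0, hj0⟩ := hζ (-1) (neg_ne_zero.2 one_ne_zero)
  -- `ha * hb` commutes with every `xb b`
  have hc_hb : Commute (ha * hb) hb := by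
    show ha * hb * hb = hb * (ha * hb)
    rw [← mul_assoc, ← hh]
  have hc_ub : Commute (ha * hb) ub := mul_inv_eq_iff_eq_mul.1 (mul_inv_eq_one.1 hT4)
  have hc_step : ∀ b, Commute (ha * hb) (xb b) → Commute (ha * hb) (xb (ζ ^ 2 * b)) := by
    intro b hb'
    rw [← hb_hb b]
    exact (hc_hb.inv_right.mul_right hb').mul_right hc_hb
  have hc_pow : ∀ j : ℕ, Commute (ha * hb) (xb ((ζ ^ 2) ^ j)) := by
    intro j
    induction j with
    | zero => rw [pow_zero, hxb1]; exact hc_ub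
    | succ j ih => rw [pow_succ']; exact hc_step _ ih
  have hc_sq : ∀ a : F, Commute (ha * hb) (xb (a ^ 2)) := by
    intro a
    by_cases ha0 : a = 0
    · rw [ha0, zero_pow two_ne_zero, hxb0]
      exact Commute.one_right _
    · obtain ⟨j, hj⟩ := hζ a ha0
      rw [hj, ← pow_mul, mul_comm, pow_mul]
      exact hc_pow j
  have hc_all : ∀ b : F, Commute (ha * hb) (xb b) := by
    intro b
    obtain ⟨a, d, hab⟩ := Pres.h23_sum_two_sq b
    rw [← hab, haddb]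
    exact (hc_sq a).mul_right (hc_sq d)
  exact
    { adda := hadda
      addb := haddb
      a_hb := ha_hb
      a_ha := ha_ha
      b_hb := hb_hb
      b_hahb := fun b => by rw [(hc_all b).eq, mul_inv_cancel_right]
      hh := hh
      ta_ha := hta_ha
      ta_hb := mul_inv_eq_one.1 hT2
      tb_hb := htb_hb
      tb_ha := mul_inv_eq_one.1 hT3
      ra := hra
      rb := hrb
      haq := hhaq
      hbq := hhbq
      ta2 := by
        rw [hta2 j0 hj0.symm]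
        exact Subgroup.npow_mem_zpowers ha j0
      tb2 := by
        rw [htb2 j0 hj0.symm]
        exact Subgroup.npow_mem_zpowers hb j0
      n1 := by
        rw [hxa1, hxam1]
        exact mul_eq_one_iff_eq_inv.1 hN1
      n2 := by
        rw [hxb1]
        exact mul_inv_eq_one.1 hN2
      braid := mul_inv_eq_one.1 hN3
      s1 := by
        rw [hxa1, hxb1, hxam1]
        exact mul_inv_eq_one.1 hS1
      s2 := by
        rw [hxa1, hxb1]
        exact mul_inv_eq_iff_eq_mul.1 (mul_inv_eq_one.1 hS2)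
      s3 := by
        rw [hxb1]
        exact mul_inv_eq_iff_eq_mul.1 (mul_inv_eq_one.1 hS3) }

end Cfsg.Agent.Lib.Helper93.Sp4
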