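import Mathlib
import Cfsg.Agent.Lib.Helper93.Sp4Defs

/-!
# S2293 piece SP4-MATRA: the five `relsA` relators hold on the matrices
-/

set_option autoImplicit false

namespace Cfsg.Agent.Lib.Helper93.Sp4

open Polynomial Matrix

section matra

variable {F : Type*} [Field F]

theorem h85_sX_sHa (ζ : F) (hζ0 : ζ ≠ 0) :
    sX (1 : F) * sHa ζ hζ0 = sHa ζ hζ0 * sX (ζ ^ 2) := by
  apply Subtype.ext
  show (sX (1 : F)).1 * (sHa ζ hζ0).1 = (sHa ζ hζ0).1 * (sX (ζ ^ 2)).1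
  rw [sX_val, sHa_val, sX_val, Matrix.fromBlocks_multiply, Matrix.fromBlocks_multiply]
  congr 1 <;> ext i j <;> fin_cases i <;> fin_cases j <;>
    simp <;> field_simp

theorem h85_sHa_sTa (ζ : F) (hζ0 : ζ ≠ 0) :
    sHa ζ hζ0 * sTa F * sHa ζ hζ0 = sTa F := by
  apply Subtype.ext
  show (sHa ζ hζ0).1 * (sTa F).1 * (sHa ζ hζ0).1 = (sTa F).1
  rw [sTa_val, sHa_val, Matrix.fromBlocks_multiply, Matrix.fromBlocks_multiply]
  congr 1 <;> ext i j <;> fin_cases i <;> fin_cases j <;>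
    simp [hζ0]

theorem h85_sX_sTa :
    sX (1 : F) * sTa F * sX (1 : F) = sTa F * sX (-1 : F) * sTa F := by
  apply Subtype.ext
  show (sX (1 : F)).1 * (sTa F).1 * (sX (1 : F)).1 = (sTa F).1 * (sX (-1 : F)).1 * (sTa F).1
  rw [sTa_val, sX_val, sX_val, Matrix.fromBlocks_multiply, Matrix.fromBlocks_multiply,
    Matrix.fromBlocks_multiply, Matrix.fromBlocks_multiply]
  congr 1 <;> ext i j <;> fin_cases i <;> fin_cases j <;>
    simp

/-- MATRA -/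
theorem mat_relsA (p : ℕ) [Fact p.Prime] [CharP F p] [Algebra (ZMod p) F] (ζ : F) (hζ0 : ζ ≠ 0)
    (hadd : ∀ a b : F, sX (a + b) = sX a * sX b)
    (haC : ∀ i : ℕ, Pres.aC (sX (1 : F)) (sHb ζ hζ0)⁻¹ i = sX (ζ ^ i))
    (hpw : Pres.pw p (sX (1 : F)) (sHb ζ hζ0)⁻¹ (minpoly (ZMod p) ζ) = 1) :
    ∀ r ∈ relsA p (minpoly (ZMod p) ζ) (sX (1 : F)) (sHa ζ hζ0) (sTa F) (sHb ζ hζ0), r = 1 := by
  have hX0 : sX (0 : F) = 1 := by
    have h := hadd 0 0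
    rw [add_zero] at h
    exact mul_left_cancel (a := sX (0 : F)) (by rw [mul_one]; exact h.symm)
  have hpow : ∀ n : ℕ, sX (1 : F) ^ n = sX (n : F) := by
    intro n
    induction n with
    | zero => rw [pow_zero, Nat.cast_zero, hX0]
    | succ n ih => rw [pow_succ, ih, Nat.cast_succ, hadd]
  have huv : sX (1 : F) * sX (-1 : F) = 1 := by
    rw [← hadd, add_neg_cancel, hX0]
  have hE3 := h85_sX_sHa ζ hζ0
  have hE4 := h85_sHa_sTa ζ hζ0
  have hE5 := h85_sX_sTa (F := F)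
  obtain ⟨u, hu⟩ : ∃ u, u = sX (1 : F) := ⟨_, rfl⟩
  obtain ⟨v, hv⟩ : ∃ v, v = sX (-1 : F) := ⟨_, rfl⟩
  obtain ⟨h, hh⟩ : ∃ h, h = sHa ζ hζ0 := ⟨_, rfl⟩
  obtain ⟨t, ht⟩ : ∃ t, t = sTa F := ⟨_, rfl⟩
  rw [← hu, ← hh] at hE3
  rw [← hh, ← ht] at hE4
  rw [← hu, ← hv, ← ht] at hE5
  rw [← hu, ← hv] at huv
  have h1 : sX (1 : F) ^ p = 1 := by
    rw [hpow, CharP.cast_eq_zero, hX0]
  have h3 : (h⁻¹ * u * h)⁻¹ * Pres.aC (sX (1 : F)) (sHb ζ hζ0)⁻¹ 2 = 1 := by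
    have e3 : h⁻¹ * u * h = sX (ζ ^ 2) := by
      rw [mul_assoc, hE3, inv_mul_cancel_left]
    rw [haC 2, e3, inv_mul_cancel]
  have h4 : t * h * t⁻¹ * h = 1 := by
    have e : t * h = h⁻¹ * t := by
      rw [eq_inv_mul_iff_mul_eq, ← mul_assoc]
      exact hE4
    rw [e]
    group
  have h5 : u * t⁻¹ * u * t * u * t⁻¹ = 1 := by
    have e : t⁻¹ * (u * t * u) = v * t := by
      rw [hE5]
      group
    calc u * t⁻¹ * u * t * u * t⁻¹ = u * (t⁻¹ * (u * t * u)) * t⁻¹ := by group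
      _ = u * (v * t) * t⁻¹ := by rw [e]
      _ = u * v := by group
      _ = 1 := huv
  intro r hr
  rw [← hu, ← hh, ← ht] at hr
  unfold relsA at hr
  simp only [List.mem_cons, List.not_mem_nil, or_false] at hr
  rcases hr with rfl | rfl | rfl | rfl | rfl
  · rw [hu]; exact h1
  · rw [hu]; exact hpw
  · rw [hu] at h3 ⊢; exact h3
  · exact h4
  · exact h5

end matra

end Cfsg.Agent.Lib.Helper93.Sp4
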